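import Mathlib
import Cfsg.Agent.H42.PcDefs
import Cfsg.Agent.S0205

/-! Project PC, piece FIN0. -/

set_option autoImplicit false

namespace Cfsg.Agent.H52.PcFin0

open Subgroup Cfsg.Agent.H42.Pc

universe u

theorem fin0 (qo : QoStmt.{u}) (fin : FinStmt.{u}) : Fin0Stmt.{u} := by
  intro G _ _ T O hT hO
  haveI := hT.nT
  haveI hN : O.Normal := ⟨fun n hn g => by
    obtain ⟨h1, h2⟩ := (hO n).1 hn
    refine (hO _).2 ⟨(inferInstance : (centralizer (T : Set G)).Normal).conj_mem n h1 g, ?_⟩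
    have : orderOf (g * n * g⁻¹) = orderOf n :=
      (MulAut.conj g).orderOf_eq n
    rwa [this]⟩
  have hodd : Odd (Nat.card O) := by
    rw [← Nat.not_even_iff_odd, even_iff_two_dvd]
    intro h2
    haveI : Fact (Nat.Prime 2) := ⟨Nat.prime_two⟩
    obtain ⟨x, hx⟩ := exists_prime_orderOf_dvd_card' (G := O) 2 h2
    have h3 := ((hO x).1 x.2).2
    rw [Subgroup.orderOf_coe, hx] at h3
    exact absurd h3 (by decide)
  haveI := S0205.result hodd
  obtain ⟨h1, h2⟩ := qo G T O hT hO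
  haveI := fin (G ⧸ O) _ h1 h2
  exact solvable_of_ker_le_range O.subtype (QuotientGroup.mk' O) (by simp)

end Cfsg.Agent.H52.PcFin0
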