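import Cfsg.Agent.H42.FvDefs

/-!
# Elements fixing a vector of the Cartan subalgebra
-/

set_option autoImplicit false

namespace Cfsg.Agent.H52.FvFixH

open Equiv Cfsg.Lie H37 H40 H34 H29 Module H50.E83 H42.Fv
open scoped Matrix

theorem fixH (ent : EntStmt) (tact : TactStmt) : FixHStmt := by
  intro h hh
  have h0 : ∀ r, h (Sum.inr r) = 0 := fun r => by_contra fun e => hh r e
  refine ⟨fun u hu => ?_, fun t ht => ?_⟩
  · refine Split.U_ind_left (p := fun g => act g h = h) (by rw [map_one]; rfl) ?_ u hu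
    intro r hr x hx g _ ih
    obtain ⟨t, rfl⟩ := Cert.mem_X.1 hx
    obtain ⟨cf, -, he⟩ := ent
    rw [act_mul, ih, act_eq_ac, ac, xg_eq]
    funext i
    rcases i with i | s
    · rw [(he K r t h).1 i, h0, mul_zero, zero_mul, add_zero]
    · rw [(he K r t h).2 s, show al r h = 0 from hr]
      simp only [h0, mul_zero, zero_mul, neg_zero, sub_zero, ite_self, add_zero,
        Finset.sum_const_zero]
  · obtain ⟨c, hc⟩ := tact K t ht
    rw [act_eq_ac]
    funext i
    rcases i with i | s
    · exact (hc h).1 i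
    · rw [(hc h).2 s, h0, mul_zero]

end Cfsg.Agent.H52.FvFixH
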