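import Cfsg.Agent.H42.FvDefs

/-!
# Existence of optimal pairs
-/

set_option autoImplicit false

namespace Cfsg.Agent.H52.FvKr1

open Equiv Cfsg.Lie H37 H40 H34 H29 Module H50.E83 H42.Fv
open scoped Matrix

theorem exmin {ι : Type} [Fintype ι] {S : Set (ι → ℝ)} (hS : IsClosed S) {l₀ : ι → ℝ}
    (h₀ : l₀ ∈ S) : ∃ l ∈ S, ∀ l' ∈ S, ∑ r, l r ^ 2 ≤ ∑ r, l' r ^ 2 := by
  have hc : Continuous fun l : ι → ℝ => ∑ r, l r ^ 2 := by fun_prop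
  have hn : 0 ≤ ∑ r, l₀ r ^ 2 := Finset.sum_nonneg fun _ _ => sq_nonneg _
  have hK : IsCompact (S ∩ {l | ∑ r, l r ^ 2 ≤ ∑ r, l₀ r ^ 2}) := by
    refine Metric.isCompact_of_isClosed_isBounded (hS.inter (isClosed_le hc continuous_const))
      ((Metric.isBounded_closedBall (x := 0) (r := ∑ r, l₀ r ^ 2 + 1)).subset fun l hl => ?_)
    rw [mem_closedBall_zero_iff, pi_norm_le_iff_of_nonneg (by linarith)]
    intro r
    have h1 : l r ^ 2 ≤ ∑ r, l r ^ 2 :=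
      Finset.single_le_sum (f := fun r => l r ^ 2) (fun _ _ => sq_nonneg _) (Finset.mem_univ r)
    have h2 : ∑ r, l r ^ 2 ≤ ∑ r, l₀ r ^ 2 := hl.2
    rw [Real.norm_eq_abs, abs_le]
    constructor <;> nlinarith [sq_nonneg (l r - 1), sq_nonneg (l r + 1)]
  obtain ⟨l, hl, hm⟩ := hK.exists_isMinOn ⟨l₀, h₀, le_refl (∑ r, l₀ r ^ 2)⟩ hc.continuousOn
  refine ⟨l, hl.1, fun l' hl' => ?_⟩
  by_cases h : ∑ r, l' r ^ 2 ≤ ∑ r, l₀ r ^ 2
  · exact hm ⟨hl', h⟩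
  · exact le_trans hl.2 (not_le.1 h).le

theorem closed {ι κ γ : Type} [Fintype ι] [Fintype κ] (c : ι → κ → ℝ) (s : κ → ι) (Q : γ → Prop)
    (Z : γ → ι → Prop) : IsClosed {l : ι → ℝ | (∀ r, l r = ∑ j, c r j * l (s j)) ∧
      ∃ g, Q g ∧ ∀ r, l r < 1 → Z g r} := by
  have e : {l : ι → ℝ | ∃ g, Q g ∧ ∀ r, l r < 1 → Z g r} =
      ⋃ T ∈ {T : Set ι | ∃ g, Q g ∧ T = {r | ¬ Z g r}}, ⋂ r ∈ T, {l : ι → ℝ | 1 ≤ l r} := by
    ext l
    simp only [Set.mem_ofPred_eq, Set.mem_iUnion, Set.mem_iInter]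
    constructor
    · rintro ⟨g, h1, h2⟩
      exact ⟨_, ⟨g, h1, rfl⟩, fun r hr => not_lt.1 fun h => hr (h2 r h)⟩
    · rintro ⟨_, ⟨g, h1, rfl⟩, h2⟩
      exact ⟨g, h1, fun r hr => by_contra fun h => not_le.2 hr (h2 r h)⟩
  rw [Set.ofPred_and, e, Set.ofPred_forall]
  exact (isClosed_iInter fun r => isClosed_eq (by fun_prop) (by fun_prop)).inter
    ((Set.toFinite _).isClosed_biUnion fun T _ => isClosed_biInter fun r _ =>
      isClosed_le continuous_const (by fun_prop))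

theorem kr1 (ad : AddRStmt) (dr : DomRStmt) (nv : NvgStmt) : Kr1Stmt := by
  intro g₀ y hy h0
  have hS := closed (fun (r : Rt) j => (C8.R.rc r j : ℝ)) C8.R.simple
    (fun g : GK => (0 : ℝ) < 1 → ∀ i, act g⁻¹ (act g₀ y) (Sum.inl i) = 0)
    (fun g r => act g⁻¹ (act g₀ y) (Sum.inr r) = 0)
  obtain ⟨l, ⟨hl, g, hg⟩, hm⟩ := exmin hS (l₀ := fun r => (C8.R.ht r : ℝ)) ⟨fun r => by
      simp only [RS.ht_simple, Int.cast_one, mul_one]
      rw [RS.ht_def, Int.cast_sum], g₀, by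
      rw [act_inv_act]
      refine ⟨fun _ i => congrFun h0 (Sum.inl i), fun r hr => by_contra fun e => ?_⟩
      have h1 : 0 < C8.R.ht r := (C8.R.ht_pos_iff r).2 (hy r e)
      have h2 : C8.R.ht r < 1 := by exact_mod_cast (show (C8.R.ht r : ℝ) < 1 from hr)
      omega⟩
  obtain ⟨w, hw, hd⟩ := dr l hl
  obtain ⟨n, hn, rfl⟩ := P8.exists_lift hw
  refine ⟨g * n, fun r => l (P8.ν n r), (ad l hl).2.2 _ hw, hd, ?_, fun g' l' h1 h2 => ?_⟩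
  · rw [← nv l n hn, ← act_mul, mul_inv_rev, mul_inv_cancel_left]
    exact hg
  · exact (Equiv.sum_comp (P8.ν n) fun r => l r ^ 2).trans_le (hm l' ⟨h1, g', h2⟩)

end Cfsg.Agent.H52.FvKr1
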