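import Cfsg.Agent.H49.BN2Defs
import Cfsg.Agent.H55.Cores

/-!
# Split BN-pairs of rank two: the nilpotent groups are `p`-groups
-/

set_option autoImplicit false
set_option linter.unusedSectionVars false
set_option linter.unusedVariables false

namespace Cfsg.Agent.H52.BN2P0

open Cfsg.Agent.H49.BN2 Subgroup MulAction
open scoped commutatorElement

universe u

section grp

variable {G X : Type u} [Group G] [MulAction G X] [Finite G] [Finite X]

/-- A normal `r`-subgroup of a group transitive on a set of size prime to `r` fixes the set. -/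
theorem fix_all {r : ℕ} (hr : r.Prime) {U W : Subgroup G} {Y : Set X} (hU : IsPGroup r U)
    (hUW : U ≤ W) (hn : ∀ w ∈ W, ∀ u ∈ U, w * u * w⁻¹ ∈ U) (hY : ∀ w ∈ W, ∀ y ∈ Y, w • y ∈ Y)
    (tr : ∀ y ∈ Y, ∀ y' ∈ Y, ∃ w ∈ W, w • y = y') (hd : ¬ r ∣ Y.ncard) :
    ∀ u ∈ U, ∀ y ∈ Y, u • y = y := by
  have := Fact.mk hr
  let Z : SubMulAction U X := ⟨Y, fun c x hx => hY c (hUW c.2) x hx⟩
  obtain ⟨⟨a, ha⟩, hf⟩ := hU.nonempty_fixed_point_of_prime_not_dvd_card Z
    (by rwa [show Nat.card Z = Y.ncard from Nat.card_coe_set_eq Y])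
  have hf' : ∀ u ∈ U, u • a = a := fun u hu => congrArg Subtype.val (hf ⟨u, hu⟩)
  intro u hu y hy
  obtain ⟨w, hw, rfl⟩ := tr a ha y hy
  have := hf' _ (hn w⁻¹ (inv_mem hw) u hu)
  rw [inv_inv, mul_smul, mul_smul, inv_smul_eq_iff] at this
  exact this

theorem le_Op_nil {p : ℕ} (hp : p.Prime) {P W : Subgroup G} (hW : Group.IsNilpotent W)
    (hP : IsPGroup p P) (h : P ≤ W) : P ≤ Op p W := by
  have := Fact.mk hp
  exact H55.le_Op_of_le_Ft hP (h.trans (H55.le_Ft hW le_rfl le_normalizer))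

/-- The `p`-core of a nilpotent group transitive on a set of size divisible by `p` moves every
point. -/
theorem mov {p : ℕ} (hp : p.Prime) {W : Subgroup G} {Y : Set X} (hW : Group.IsNilpotent W)
    (hY : ∀ w ∈ W, ∀ y ∈ Y, w • y ∈ Y) (tr : ∀ y ∈ Y, ∀ y' ∈ Y, ∃ w ∈ W, w • y = y')
    (hd : p ∣ Y.ncard) {y : X} (hy : y ∈ Y) : ∃ g ∈ Op p W, g • y ≠ y := by
  have := Fact.mk hp
  by_contra h
  push Not at h
  obtain ⟨P⟩ : Nonempty (Sylow p W) := inferInstance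
  have h1 : (P : Subgroup W).map W.subtype ≤ Op p W :=
    le_Op_nil hp hW (P.isPGroup'.map _) (map_subtype_le _)
  have h2 : (P : Subgroup W) ≤ stabilizer W y := fun g hg => h g (h1 (mem_map_of_mem _ hg))
  have h3 : orbit W y = Y := by
    ext z
    constructor
    · rintro ⟨w, rfl⟩
      exact hY w w.2 y hy
    · intro hz
      obtain ⟨w, hw, e⟩ := tr y hy z hz
      exact ⟨⟨w, hw⟩, e⟩
  have h4 : (stabilizer W y).index = Y.ncard := by rw [index_stabilizer, h3]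
  exact P.not_dvd_index ((h4 ▸ hd).trans (index_dvd_of_le h2))

theorem comm_Op {p r : ℕ} (hp : p.Prime) (hr : r.Prime) (h : r ≠ p) (V : Subgroup G) {a b : G}
    (ha : a ∈ Op p V) (hb : b ∈ Op r V) : a * b = b * a := by
  have := Fact.mk hp
  have := Fact.mk hr
  have := commutator_mem_commutator ha (H55.Op_le_Opp h V hb)
  rw [H55.commutator_Op_Opp, mem_bot] at this
  exact commutatorElement_eq_one_iff_mul_comm.1 this

theorem conj_Op (p : ℕ) {V : Subgroup G} {w u : G} (hw : w ∈ V) (hu : u ∈ Op p V) :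
    w * u * w⁻¹ ∈ Op p V :=
  (mem_normalizer_iff.1 (le_normalizer_Op V hw) u).1 hu

end grp

variable {n : ℕ} {X G : Type u} [Group G] [MulAction G X] (S : Sys0 n X G)

theorem conv (b : S.toPol.Bas) (K : Set G) : S.toPol.Conv {x | ∀ g ∈ K, g • x = x} := by
  intro x hx z hz w hd hw g hg
  refine b.geo_uniq x z _ _ hd ?_ hw ?_
  · rw [← hw, ← S.d_smul g x w, ← S.d_smul g w z, hx g hg, hz g hg]
  · rw [← S.d_smul g x w, hx g hg]

theorem fix2' {x y : X} (h : S.d x y = 1) {g : G} (hg : g ∈ S.V x y) : g • y = y :=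
  S.V_fix y x (by rw [S.d_symm, h]) g (S.V_symm x y ▸ hg)

theorem tr (b : S.toPol.Bas) (h3 : 3 ≤ n) {x y u u' : X} {k : ℕ} (h : S.d x y = 1)
    (h1 : S.d x u = k + 1) (h2 : S.d y u = k) (h1' : S.d x u' = k + 1) (h2' : S.d y u' = k) :
    ∃ g ∈ S.V x y, g • u = u' := by
  have hk : k + 1 ≤ n := h1 ▸ S.d_le x u
  have key : ∀ a, S.d x a = k + 1 → S.d y a = k → ∃ e v, S.toPol.Opp x y e v ∧
      S.d y a + S.d a e = S.d y e ∧ S.d y e < n := by
    intro a ha hb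
    obtain ⟨e, e1, e2⟩ := b.ext x a (n - (k + 1)) (by omega)
    have t1 := b.tri y a e
    have t2 := b.tri x y e
    obtain ⟨v, v1, v2⟩ := b.ext y e 1 (by omega)
    exact ⟨e, v, ⟨h, v1, by omega, by omega⟩, by omega, by omega⟩
  obtain ⟨e, v, ho, a1, a2⟩ := key u h1 h2
  obtain ⟨e', v', ho', a1', a2'⟩ := key u' h1' h2'
  obtain ⟨g, hg, g1, -⟩ := S.V_tr x y e v e' v' ho ho'
  have gy := fix2' S h hg
  refine ⟨g, hg, b.geo_uniq y e' _ _ a2' ?_ a1' ?_⟩
  · rw [← g1, S.d_smul]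
    conv_lhs => rw [← gy, S.d_smul]
    conv_rhs => rw [← gy, S.d_smul]
    exact a1
  · conv_lhs => rw [← gy, S.d_smul]
    rw [h2, h2']

/-- The stabiliser in `V x y` of a vertex `w` is transitive on the neighbours further away. -/
theorem step (b : S.toPol.Bas) (h3 : 3 ≤ n) {x y w : X} {k : ℕ} (h : S.d x y = 1)
    (h1 : S.d x w = k + 1) (h2 : S.d y w = k) :
    ∃ Y : Set X, Y.ncard = S.toPol.q w ∧ (∀ v, v ∈ Y ↔ S.d w v = 1 ∧ S.d y v = k + 1 ∧ v ≠ x) ∧
      (∀ g ∈ S.V x y ⊓ stabilizer G w, ∀ v ∈ Y, g • v ∈ Y) ∧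
      ∀ v ∈ Y, ∀ v' ∈ Y, ∃ g ∈ S.V x y ⊓ stabilizer G w, g • v = v' := by
  have hk : k + 1 ≤ n := h1 ▸ S.d_le x w
  obtain ⟨w', a1, a2, a3⟩ : ∃ w', S.d w w' = 1 ∧ S.d x w' ≤ k ∧
      ∀ v, S.d w v = 1 → (v ≠ w' ↔ S.d y v = k + 1 ∧ v ≠ x) := by
    rcases Nat.eq_zero_or_pos k with rfl | hk0
    · obtain rfl := (S.d_zero y w).1 h2
      exact ⟨x, by rw [S.d_symm, h], by rw [(S.d_zero x x).2 rfl], fun v hv => by simp [hv]⟩
    · obtain ⟨w', c1, c2⟩ := S.ex w y (fun e => by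
        rw [e, (S.d_zero y y).2 rfl] at h2; omega)
      rw [S.d_symm w y, S.d_symm w' y] at c2
      have t := b.tri x y w'
      refine ⟨w', c1, by omega, fun v hv => ⟨fun hne => ⟨?_, ?_⟩, ?_⟩⟩
      · rw [b.away w w' v y c1 hv hne.symm (by omega) (by omega), h2]
      · rintro rfl
        rw [S.d_symm] at hv
        omega
      · rintro ⟨c3, -⟩ rfl
        omega
  refine ⟨S.toPol.nb w \ {w'}, b.card_nb w w' a1, fun v => ?_, ?_, ?_⟩
  · exact ⟨fun hv => ⟨hv.1, (a3 v hv.1).1 hv.2⟩, fun hv => ⟨hv.1, (a3 v hv.1).2 hv.2⟩⟩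
  · rintro g ⟨hg, hw⟩ v ⟨hv, hv'⟩
    have hw' : g • w = w := hw
    have e1 : S.d w (g • v) = 1 := by rw [← hw', S.d_smul]; exact hv
    obtain ⟨c1, c2⟩ := (a3 v hv).1 hv'
    refine ⟨e1, (a3 _ e1).2 ⟨by rw [← fix2' S h hg, S.d_smul, c1], fun e => c2 ?_⟩⟩
    rw [← S.V_fix x y h g hg] at e
    exact smul_left_cancel g e
  · rintro v ⟨hv, hv1⟩ v' ⟨hv', hv1'⟩
    have hv : S.d w v = 1 := hv
    have hv' : S.d w v' = 1 := hv'
    obtain ⟨c1, -⟩ := (a3 v hv).1 hv1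
    obtain ⟨c1', -⟩ := (a3 v' hv').1 hv1'
    rcases hk.lt_or_eq with hk | hk
    · have e1 := b.away w w' v x a1 hv (Ne.symm hv1) (by omega) (by omega)
      have e2 := b.away w w' v' x a1 hv' (Ne.symm hv1') (by omega) (by omega)
      obtain ⟨g, hg, e⟩ := tr S b h3 h (k := k + 1) (by omega) c1 (by omega) c1'
      refine ⟨g, ⟨hg, ?_⟩, e⟩
      have gy := fix2' S h hg
      refine S.uniq v' _ _ y (by rw [S.d_symm]; omega) ?_ (by rw [S.d_symm, hv']) ?_ ?_
      · rw [← e, S.d_smul, S.d_symm, hv]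
      · rw [S.d_symm v' y, c1', ← gy, S.d_smul, S.d_symm]
        omega
      · rw [S.d_symm v' y, c1', S.d_symm]
        omega
    · obtain ⟨g, hg, e1, e2⟩ := S.V_tr x y w v w v' ⟨h, hv, by omega, by omega⟩
        ⟨h, hv', by omega, by omega⟩
      exact ⟨g, ⟨hg, e1⟩, e2⟩

theorem nil_inf (hn : S.Nil) {x y : X} (h : S.d x y = 1) (K : Subgroup G) :
    Group.IsNilpotent ↥(S.V x y ⊓ K) :=
  isNilpotent_of_le inf_le_left (hn x y h)

variable [Finite X] [Finite G]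

set_option maxHeartbeats 1000000 in
/-- One prime for the two ends of an edge. -/
theorem prime_edge (b : S.toPol.Bas) (h3 : 3 ≤ n) (hn : S.Nil) {x y : X} (h : S.d x y = 1)
    {p r : ℕ} (hp : p.Prime) (hr : r.Prime) (h1 : p ∣ S.toPol.q x) (h2 : r ∣ S.toPol.q y) :
    r = p := by
  by_contra hne
  obtain ⟨u, u1, u2⟩ := b.ext x y (n - 1) (by omega)
  obtain ⟨x2, a1, a2⟩ := b.geo_ex y u 1 (by omega)
  obtain ⟨x3, a3, a4⟩ := b.geo_ex x2 u 1 (by omega)
  obtain ⟨e, a5, a6⟩ := b.geo_ex x2 u (n - 3) (by omega)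
  have t1 := b.tri y x2 x3
  have t2 := b.tri y x3 u
  have t3 := b.tri y x2 e
  have t4 := b.tri y e u
  -- an `r`-element moving `x2`
  obtain ⟨Y, y1, y2, y3, y4⟩ := step S b h3 h (w := y) (k := 0) h ((S.d_zero y y).2 rfl)
  have hx2 : x2 ∈ Y := (y2 x2).2 ⟨a1, a1, by rintro rfl; omega⟩
  obtain ⟨g, hg, hg2⟩ := mov hr (nil_inf S hn h _) y3 y4 (y1 ▸ h2) hx2
  have hgV : g ∈ S.V x y := (Op_le _ hg).1
  have hg' : g ∈ Op r (S.V x y) :=
    le_Op_nil hr (hn x y h) (H55.Op_isPGroup r _) ((Op_le _).trans inf_le_left) hg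
  have gy := fix2' S h hgV
  obtain ⟨Z, z1, z2, z3, z4⟩ := step S b h3 h (w := u) (k := n - 1) (by omega) u1
  set W := Op p (S.V x y ⊓ stabilizer G u) with hW
  have hWV : W ≤ Op p (S.V x y) :=
    le_Op_nil hp (hn x y h) (H55.Op_isPGroup p _) ((Op_le _).trans inf_le_left)
  have hc := conv S b (W : Set G)
  set F := {x : X | ∀ g ∈ (W : Set G), g • x = x} with hF
  have fy : y ∈ F := fun a ha => fix2' S h (Op_le _ ha).1
  have fu : u ∈ F := fun a ha => (Op_le _ ha).2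
  have fg : ∀ v ∈ F, g • v ∈ F := fun v hv a ha => by
    rw [← mul_smul, comm_Op hp hr hne _ (hWV ha) hg', mul_smul, hv a ha]
  have f2 : x2 ∈ F := hc y fy u fu x2 (by omega) a2
  have f3 : x3 ∈ F := hc x2 f2 u fu x3 (by omega) a4
  have fe : e ∈ F := hc x2 f2 u fu e (by omega) a6
  have d1 : S.d y (g • x2) = 1 := by rw [← gy, S.d_smul, a1]
  have s1 := S.d_symm u x2
  have s2 := S.d_symm u y
  have s3 := S.d_symm e x2
  have s4 := S.d_symm e y
  have s5 := S.d_symm e u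
  have d2 := b.away y x2 (g • x2) u a1 d1 (Ne.symm hg2) (by omega) (by omega)
  have d3 := b.away y x2 (g • x2) e a1 d1 (Ne.symm hg2) (by omega) (by omega)
  have d4 : S.d (g • x2) (g • x3) = 1 := by rw [S.d_smul, a3]
  have d5 := b.away (g • x2) y (g • x3) e (by rw [S.d_symm, d1]) d4 (by
    intro e1
    rw [← gy] at e1
    rw [← smul_left_cancel g e1] at a4
    omega) (by omega) (by omega)
  obtain ⟨v, fv, v1, v2⟩ := b.fix2 F hc
    ⟨u, fu, e, fe, _, fg _ f2, _, fg _ f3, by omega, d4, by omega, by omega⟩ u fu e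
  have v3 := b.away u e v y (by omega) v1 v2.symm (by omega) (by omega)
  have hv : v ∈ Z := (z2 v).2 ⟨v1, by omega, by
    rintro rfl
    rw [S.d_symm] at v1
    omega⟩
  obtain ⟨a, ha, ha'⟩ := mov hp (nil_inf S hn h _) z3 z4
    (by rw [z1, ← b.q_opp x u (by omega)]; exact h1) hv
  exact ha' (fv a ha)

theorem exists_prime (b : S.toPol.Bas) (h3 : 3 ≤ n) (hn : S.Nil) [Nonempty X] :
    ∃ p : ℕ, p.Prime ∧ ∀ x r, r.Prime → r ∣ S.toPol.q x → r = p := by
  obtain ⟨o⟩ := ‹Nonempty X›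
  have hq : ∀ x, ∃ r, r.Prime ∧ r ∣ S.toPol.q x := fun x =>
    Nat.exists_prime_and_dvd (by have := b.two_le_q x; omega)
  obtain ⟨p, hp, hd⟩ := hq o
  refine ⟨p, hp, fun x => ?_⟩
  induction hk : S.d x o generalizing x with
  | zero =>
    obtain rfl := (S.d_zero x o).1 hk
    obtain ⟨y, hy, -⟩ := S.thick x x x
    obtain ⟨s, hs, hs'⟩ := hq y
    intro r hr hr'
    rw [← prime_edge S b h3 hn hy hr hs hr' hs', prime_edge S b h3 hn hy hp hs hd hs']
  | succ k ih =>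
    obtain ⟨y, y1, y2⟩ := S.ex x o (fun e => by rw [e, (S.d_zero o o).2 rfl] at hk; omega)
    obtain ⟨s, hs, hs'⟩ := hq y
    intro r hr hr'
    rw [← prime_edge S b h3 hn y1 hr hs hr' hs', ih y (by omega) s hs hs']

theorem fix_step (b : S.toPol.Bas) (h3 : 3 ≤ n) {r : ℕ} (hr : r.Prime)
    (hq : ∀ x, ¬ r ∣ S.toPol.q x) {x y w : X} {k : ℕ} (h : S.d x y = 1)
    (h1 : S.d x w = k + 1) (h2 : S.d y w = k) (hw : ∀ g ∈ Op r (S.V x y), g • w = w) {v : X}
    (v1 : S.d w v = 1) (v2 : S.d y v = k + 1) (v3 : v ≠ x) : ∀ g ∈ Op r (S.V x y), g • v = v := by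
  obtain ⟨Y, y1, y2, y3, y4⟩ := step S b h3 h h1 h2
  exact fun g hg => fix_all (W := S.V x y ⊓ stabilizer G w) hr (H55.Op_isPGroup r _)
    (fun a ha => ⟨Op_le _ ha, hw a ha⟩)
    (fun a ha u hu => conj_Op r ha.1 hu) y3 y4 (y1 ▸ hq w) g hg v ((y2 v).2 ⟨v1, v2, v3⟩)

theorem fix_far (b : S.toPol.Bas) (h3 : 3 ≤ n) {r : ℕ} (hr : r.Prime)
    (hq : ∀ x, ¬ r ∣ S.toPol.q x) {x y : X} (h : S.d x y = 1) (k : ℕ) :
    ∀ w, S.d x w = k + 1 → S.d y w = k → ∀ g ∈ Op r (S.V x y), g • w = w := by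
  induction k with
  | zero =>
    intro w _ h2 g hg
    obtain rfl := (S.d_zero y w).1 h2
    exact fix2' S h (Op_le _ hg)
  | succ k ih =>
    intro v h1 h2
    obtain ⟨w, w1, w2⟩ := S.ex v y (fun e => by rw [e, (S.d_zero y y).2 rfl] at h2; omega)
    rw [S.d_symm w y, S.d_symm v y] at w2
    have t1 := b.tri x y w
    have t2 := b.tri x w v
    rw [S.d_symm] at w1
    exact fix_step S b h3 hr hq h (k := k) (by omega) (by omega) (ih w (by omega) (by omega)) w1 h2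
      (by rintro rfl; rw [(S.d_zero v v).2 rfl] at h1; omega)

theorem Op_eq_one (b : S.toPol.Bas) (h3 : 3 ≤ n) {r : ℕ} (hr : r.Prime)
    (hq : ∀ x, ¬ r ∣ S.toPol.q x) {x y : X} (h : S.d x y = 1) {g : G}
    (hg : g ∈ Op r (S.V x y)) : g = 1 := by
  have h' : S.d y x = 1 := by rw [S.d_symm, h]
  have nb : ∀ x y, S.d x y = 1 → ∀ v, S.d y v = 1 → ∀ g ∈ Op r (S.V x y), g • v = v := by
    intro x y h v hv g hg
    by_cases e : v = x
    · rw [e]
      exact S.V_fix x y h g (Op_le _ hg)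
    · exact fix_step S b h3 hr hq h (k := 0) h ((S.d_zero y y).2 rfl)
        (fun g hg => fix2' S h (Op_le _ hg)) hv hv e g hg
  obtain ⟨u, u1, u2⟩ := b.ext x y (n - 1) (by omega)
  obtain ⟨v, v1, v2⟩ := b.ext y u 1 (by omega)
  have fu := fix_far S b h3 hr hq h (n - 1) u (by omega) u1
  have fv := fix_step S b h3 hr hq h (k := n - 1) (by omega) u1 fu v1 (by omega) (by
    rintro rfl
    omega)
  refine S.faith g fun w => b.rig _ (conv S b (Op r (S.V x y) : Set G))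
    ⟨x, nb x y h x h', y, fun g hg => fix2' S h (Op_le _ hg), u, fu, v, fv, h, v1, by omega,
      by omega⟩ x y h (fun v hv => ?_) (fun v hv => nb x y h v hv) w g hg
  rw [S.V_symm]
  exact nb y x h' v hv

theorem isPGroup (b : S.toPol.Bas) (h3 : 3 ≤ n) (hn : S.Nil) {p : ℕ} (hp : p.Prime)
    (hq : ∀ x r, r.Prime → r ∣ S.toPol.q x → r = p) {x y : X} (h : S.d x y = 1) :
    IsPGroup p (S.V x y) := by
  have := Fact.mk hp
  refine IsPGroup.iff_card.2 ⟨_, Nat.eq_prime_pow_of_unique_prime_dvd Nat.card_pos.ne' ?_⟩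
  intro r hr hd
  by_contra hne
  have := Fact.mk hr
  obtain ⟨g, hg⟩ := exists_prime_orderOf_dvd_card' r hd
  have h1 : IsPGroup r (zpowers (g : G)) :=
    IsPGroup.of_card (n := 1) (by rw [Nat.card_zpowers, orderOf_coe, hg, pow_one])
  have h2 := Op_eq_one S b h3 hr (fun x hx => hne (hq x r hr hx)) h
    (le_Op_nil hr (hn x y h) h1 (by simp) (mem_zpowers _))
  rw [show g = 1 from Subtype.ext h2, orderOf_one] at hg
  exact hr.one_lt.ne hg

omit [Finite X] in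
theorem conj_mem (p : ℕ) (x y : X) (h g : G) (hg : g ∈ Op p (stabilizer G x ⊓ stabilizer G y)) :
    h * g * h⁻¹ ∈ Op p (stabilizer G (h • x) ⊓ stabilizer G (h • y)) := by
  have := map_Op_le (p := p) (stabilizer G x ⊓ stabilizer G y) (MulAut.conj h).toMonoidHom
    (mem_map_of_mem _ hg)
  rwa [map_inf _ _ _ (MulAut.conj h).injective, ← stabilizer_smul_eq_stabilizer_map_conj,
    ← stabilizer_smul_eq_stabilizer_map_conj] at this

theorem norm_of {K : Subgroup G} {h : G} (hh : ∀ k ∈ K, h * k * h⁻¹ ∈ K) :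
    h ∈ normalizer (K : Set G) :=
  mem_normalizer_fintype fun k hk => hh k hk

theorem p0Stmt : P0Stmt.{u} := by
  intro n X G _ _ _ _ _ S h3 b hn
  obtain ⟨p, hp, hq⟩ := exists_prime S b h3 hn
  have := Fact.mk hp
  have hV : ∀ x y, S.d x y = 1 → S.V x y ≤ Op p (stabilizer G x ⊓ stabilizer G y) := by
    intro x y h
    refine H55.le_Op (isPGroup S b h3 hn hp hq h) (fun g hg => ⟨S.V_fix x y h g hg, fix2' S h hg⟩)
      fun g hg => norm_of fun k hk => ?_
    have := S.V_conj x y h g k hk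
    rwa [show g • x = x from hg.1, show g • y = y from hg.2] at this
  refine ⟨p, { S with
    V := fun x y => Op p (stabilizer G x ⊓ stabilizer G y)
    V_symm := fun x y => by rw [inf_comm]
    V_fix := fun x y _ g hg => (Op_le _ hg).1
    V_conj := fun x y _ h g hg => conj_mem p x y h g hg
    V_tr := fun x y u v u' v' h h' => ?_
    hp := hp
    V_p := fun x y _ => H55.Op_isPGroup p _
    V_uni := fun x y y' h h' g hg hy => ?_ }, rfl, hV⟩
  · obtain ⟨g, hg, e⟩ := S.V_tr x y u v u' v' h h'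
    exact ⟨g, hV x y h.1 hg, e⟩
  · by_cases e : y = y'
    · exact e ▸ hg
    set A := Op p (stabilizer G x ⊓ stabilizer G y') with hA
    set N := Op p (stabilizer G x ⊓ stabilizer G y) ⊓ stabilizer G y' with hN
    have hNle : N ≤ stabilizer G x ⊓ stabilizer G y' := fun a ha => ⟨(Op_le _ ha.1).1, ha.2⟩
    have hM : IsPGroup p ↥(N ⊔ A) :=
      IsPGroup.to_sup_of_normal_right' (H55.Op_isPGroup p _).to_inf_left (H55.Op_isPGroup p _)
        (hNle.trans (le_normalizer_Op _))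
    refine (H55.le_Op hM (sup_le hNle (Op_le _)) fun k hk => ?_) (mem_sup_left ⟨hg, hy⟩)
    have h'' : S.d y' x = 1 := by rw [S.d_symm, h']
    obtain ⟨Y, -, y2, -, y4⟩ := step S b h3 h'' (w := x) (k := 0) h'' ((S.d_zero x x).2 rfl)
    have kx : k • x = x := hk.1
    have ky : k • y' = y' := hk.2
    have d1 : S.d x (k • y) = 1 := by rw [← kx, S.d_smul, h]
    obtain ⟨f, ⟨hf, -⟩, ef⟩ := y4 y ((y2 y).2 ⟨h, h, e⟩) (k • y) ((y2 _).2 ⟨d1, d1, fun e' => e (by
      rw [← ky] at e'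
      exact smul_left_cancel k e')⟩)
    rw [S.V_symm] at hf
    have hfA : f ∈ A := hV x y' h' hf
    have h0 : f⁻¹ * k ∈ stabilizer G x ⊓ stabilizer G y' :=
      mul_mem (inv_mem (Op_le _ hfA)) hk
    have h1 : (f⁻¹ * k) • y = y := by rw [mul_smul, ← ef, inv_smul_smul]
    have h2 : f⁻¹ * k ∈ normalizer ((N ⊔ A : Subgroup G) : Set G) := by
      refine normalizer_inf_normalizer_le_normalizer_sup N A ⟨norm_of fun a ha => ?_, ?_⟩
      · have h3 := (mem_inf.1 h0).2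
        exact mem_inf.2 ⟨conj_Op p ⟨h0.1, h1⟩ ha.1,
          mul_mem (mul_mem h3 (mem_inf.1 ha).2) (inv_mem h3)⟩
      · exact le_normalizer_Op _ h0
    have := mul_mem (le_normalizer (mem_sup_right (S := N) hfA)) h2
    rwa [mul_inv_cancel_left] at this

end Cfsg.Agent.H52.BN2P0
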