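import Mathlib
import Cfsg.Agent.H11.CyDefs
import Cfsg.Agent.H2.SchurZassenhaus
import Cfsg.Agent.S0215
import Cfsg.Agent.S0205

/-! Project CY, piece P2. -/

set_option autoImplicit false

namespace Cfsg.Agent.H52.CyP2

open Subgroup MulAction Cfsg.Agent.H11.Cy

section
variable {G : Type} [Group G] {Ω : Type} [MulAction G Ω] {p : ℕ} {A : Ω → Subgroup G}

/-- a nontrivial normal subgroup is transitive -/
theorem trans_of_normal (h : St p A) (N : Subgroup G) [hN : N.Normal] (hne : N ≠ ⊥) (u v : Ω) :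
    ∃ k ∈ N, k • u = v := by
  by_cases e : u = v
  · exact ⟨1, N.one_mem, by rw [one_smul, e]⟩
  obtain ⟨k, hk, hk1⟩ := (Subgroup.bot_or_exists_ne_one N).resolve_left hne
  obtain ⟨y, hy⟩ : ∃ y : Ω, y ≠ k • y := by
    by_contra c
    push Not at c
    exact hk1 (h.faith k fun y => (c y).symm)
  obtain ⟨g, -, h1, h2⟩ := h.two y trivial (k • y) trivial u trivial v trivial hy e
  refine ⟨g * k * g⁻¹, hN.conj_mem k hk g, ?_⟩
  rw [← h1, mul_smul, inv_smul_smul, mul_smul, h2]

/-- a nontrivial abelian normal subgroup is regular -/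
theorem rns_of_comm (h : St p A) (N : Subgroup G) [hN : N.Normal] (hne : N ≠ ⊥)
    (hc : ∀ a ∈ N, ∀ b ∈ N, a * b = b * a) : RNS G Ω := by
  refine ⟨N, hN, ⟨fun u v => ?_⟩, fun x => ?_⟩
  · obtain ⟨k, hk, e⟩ := trans_of_normal h N hne u v
    exact ⟨⟨k, hk⟩, e⟩
  · rw [eq_bot_iff]
    intro k hk
    have hk' : (k : G) • x = x := hk
    rw [mem_bot]
    apply Subtype.ext
    refine h.faith k fun v => ?_
    obtain ⟨k', hk1, rfl⟩ := trans_of_normal h N hne x v
    rw [← mul_smul, hc k k.2 k' hk1, mul_smul, hk']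

/-- a nontrivial solvable normal subgroup gives a regular normal subgroup -/
theorem rns_of_solvable [Finite G] (h : St p A) (N : Subgroup G) [hN : N.Normal] (hne : N ≠ ⊥)
    (hs : Group.IsSolvable N) : RNS G Ω := by
  obtain ⟨M, hM, hM1, -, hc, -⟩ := H2.exists_abelian_pgroup_normal_le N hne hs
  refine rns_of_comm h M hM1 fun a ha b hb => ?_
  exact congrArg Subtype.val (hc.is_comm.comm ⟨a, ha⟩ ⟨b, hb⟩)

end

theorem p2 : P2Stmt := by
  intro G _ _ Ω _ _ p A h hp
  subst hp
  haveI : Fact (Nat.Prime 2) := ⟨Nat.prime_two⟩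
  obtain ⟨x, x', hxx⟩ := h.nt
  obtain ⟨a, ha1, hau⟩ := (Nat.card_eq_two_iff' (1 : A x)).1 (h.card x)
  have ha1' : (a : G) ≠ 1 := fun e => ha1 (Subtype.ext e)
  have hA : IsPGroup 2 (A x) := IsPGroup.of_card (n := 1) (by rw [h.card x, pow_one])
  have ho : orderOf (a : G) = 2 := by
    have h1 : a ^ 2 = 1 := by rw [← h.card x]; exact pow_card_eq_one'
    exact orderOf_eq_prime (by exact_mod_cast congrArg Subtype.val h1) ha1'
  have hodd : ¬ 2 ∣ Nat.card Ω := by
    have h1 := hA.card_modEq_card_fixedPoints Ω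
    have h2 : fixedPoints (A x) Ω = {x} := by
      ext y
      rw [mem_fixedPoints, Set.mem_singleton_iff]
      constructor
      · intro hy
        exact (h.semi x y a a.2 (hy a)).resolve_left ha1'
      · rintro rfl b
        exact h.fix _ b b.2
    rw [h2, Nat.card_unique (α := ({x} : Set Ω))] at h1
    intro hd
    have := (Nat.modEq_zero_iff_dvd.2 hd).symm.trans h1
    exact absurd this (by decide)
  obtain ⟨P, hP⟩ := hA.exists_le_sylow
  obtain ⟨y, hy⟩ := P.isPGroup'.nonempty_fixed_point_of_prime_not_dvd_card Ω hodd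
  have hy' : ∀ g ∈ (P : Subgroup G), g • y = y := fun g hg => (mem_fixedPoints.1 hy) ⟨g, hg⟩
  have hyx : y = x := (h.semi x y a a.2 (hy' a (hP a.2))).resolve_left ha1'
  subst hyx
  obtain ⟨N, hN, hNo, hNc⟩ := S0215.result P (a : G) ho (hP a.2) (fun g hg => by
    have hb := h.eqv g y a a.2
    have hb1 : g * a * g⁻¹ ≠ 1 := fun e => ha1' (by simpa using e)
    have h1 := (h.semi (g • y) y _ hb (hy' _ hg)).resolve_left hb1
    rw [← h1] at hb
    exact congrArg Subtype.val (hau ⟨_, hb⟩ fun e => hb1 (congrArg Subtype.val e)))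
  have hne : N ≠ ⊥ := by
    rintro rfl
    refine ha1' (h.faith a fun v => ?_)
    obtain ⟨g, -, rfl⟩ := trans_of_normal h ⊤ (by
      intro e
      have : (a : G) ∈ (⊥ : Subgroup G) := e ▸ mem_top _
      exact ha1' (mem_bot.1 this)) y v
    have h1 : (a : G) * g = g * a := by
      have := mem_bot.1 (hNc g)
      rwa [mul_inv_eq_one, mul_inv_eq_iff_eq_mul] at this
    rw [← mul_smul, h1, mul_smul, h.fix y a a.2]
  exact rns_of_solvable h N hne (S0205.result hNo)

end Cfsg.Agent.H52.CyP2
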