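import Cfsg.Agent.H6.E82Defs

/-! S5915, piece BRG: the group preserves the bracket and the invariant form. -/

set_option autoImplicit false

namespace Cfsg.Agent.H52.E82Brg

open Cfsg.Agent.H6.E82 Cfsg.Lie H37 H40 H34 H29

theorem br_xx (hB : BrbStmt) (hX : XactStmt) (hJ : JacStmt) (h2 : X2Stmt) (r : Rt) (t : K)
    (a b : V) : act (xx r t) (br a b) = br (act (xx r t) a) (act (xx r t) b) := by
  obtain ⟨hal, hsy, -⟩ := hB
  have e1 := hJ (ee r) a b
  have e2 := h2.1 r a b
  have e3 := h2.2 r b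
  have e4 : br (br (ee r) a) (ee r) = 0 := by rw [hsy]; exact h2.2 r a
  have e5 := hal (ee r)
  rw [hX.1, hX.1, hX.1, mul_smul (t ^ 2) (br a b _), e2, e1]
  simp only [map_add, map_smul, LinearMap.add_apply, LinearMap.smul_apply, e3, e4, e5, smul_zero,
    add_zero]
  module

theorem kap_xx (hB : BrbStmt) (hC : BrcStmt) (hX : XactStmt) (h2 : X2Stmt) (hT : TauStmt) (r : Rt)
    (t : K) (a b : V) : kap (act (xx r t) a) (act (xx r t) b) = kap a b := by
  obtain ⟨hal, hsy, -⟩ := hB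
  obtain ⟨k1, k2, -, k4⟩ := hT
  have e1 : kap (br (ee r) a) b = kap a (br (ee r) b) := by rw [hsy, k2]
  have e2 : kap (br (ee r) a) (br (ee r) b) = 0 := by rw [hsy, k2, h2.2, map_zero]
  have e3 : ∀ c, kap (ee r) (br (ee r) c) = 0 := fun c => by
    rw [← k2, hal, map_zero, LinearMap.zero_apply]
  have e4 : kap (br (ee r) a) (ee r) = 0 := by rw [k1, e3]
  have e5 : kap (ee r) (ee r) = 0 := by
    rw [k4, hC.2.2.2.2.1, if_neg (hC.2.2.2.2.2.2.2.2.2.2.2.1 r).2.1]
  have e6 : kap a (ee r) = a (Sum.inr (ng r)) := by rw [k1, k4]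
  have h0 : (2 : K) = 0 := CharP.ofNat_eq_zero K 2
  rw [hX.1, hX.1]
  simp only [map_add, map_smul, LinearMap.add_apply, LinearMap.smul_apply, e1, e2, e3, e4, e5, e6,
    k4 r b, smul_eq_mul]
  linear_combination (t * kap a (br (ee r) b) + t ^ 2 * a (Sum.inr (ng r)) * b (Sum.inr (ng r))) * h0

theorem brg (hB : BrbStmt) (hC : BrcStmt) (hX : XactStmt) (hJ : JacStmt) (h2 : X2Stmt)
    (hT : TauStmt) : BrgStmt := by
  intro g
  refine C8.V.group_induction (P := fun g : GK => ∀ a b : V,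
    act g (br a b) = br (act g a) (act g b) ∧ kap (act g a) (act g b) = kap a b) ?_ ?_ g
  · intro a b
    simp only [map_one, Module.End.one_apply, and_self]
  · intro r hr t g ih a b
    have e : C8.V.xE K r t = xx ⟨r, hr⟩ t := rfl
    rw [e, map_mul]
    simp only [Module.End.mul_apply]
    rw [(ih a b).1, br_xx hB hX hJ h2, kap_xx hB hC hX h2 hT, (ih a b).2]
    exact ⟨rfl, rfl⟩

end Cfsg.Agent.H52.E82Brg
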