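import Mathlib
import Cfsg.Agent.H50.E83Defs2

/-! The fixed points of an involution of type `D₈` on the adjoint module are `so₁₆`. -/

set_option autoImplicit false

namespace Cfsg.Agent.H52.E83Rep1b

open Equiv Cfsg.Lie Cfsg.Agent.H37 Cfsg.Agent.H40 Cfsg.Agent.H34 Cfsg.Agent.H29 Module
open Cfsg.Agent.H50.E83
open scoped Matrix

theorem two_ne : (2 : K) ≠ 0 := by
  have : ((2 : ℕ) : K) ≠ 0 := by rw [Ne, CharP.cast_eq_zero_iff K 3]; decide
  simpa using this

theorem prim2 : IsPrimitiveRoot (-1 : Kˣ) 2 := by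
  rw [← IsPrimitiveRoot.coe_units_iff]
  exact IsPrimitiveRoot.neg_one 3 (by decide)

/-- the matrices that are skew for the form `J16`, in coordinates -/
def Sk : Submodule K M16 where
  carrier := {X | ∀ a b, X b.rev a.rev = -X a b}
  add_mem' {X Y} hX hY a b := by
    rw [Matrix.add_apply, Matrix.add_apply, hX, hY, neg_add]
  zero_mem' a b := by simp
  smul_mem' c X hX a b := by
    rw [Matrix.smul_apply, Matrix.smul_apply, hX, smul_neg]

theorem mem_Sk {X : M16} : X ∈ Sk ↔ Xᵀ * J16 = -(J16 * X) := by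
  have h1 : ∀ a b, (Xᵀ * J16) a b = X b.rev a := fun a b => by
    rw [Matrix.mul_apply, Finset.sum_eq_single b.rev]
    · simp [J16]
    · intro c _ hc
      have : ¬ b = c.rev := fun e => hc (by rw [e, Fin.rev_rev])
      simp [J16, this]
    · simp
  have h2 : ∀ a b, (J16 * X) a b = X a.rev b := fun a b => by
    simp [Matrix.mul_apply, J16]
  constructor
  · intro h
    ext a b
    rw [h1, Matrix.neg_apply, h2, ← h a.rev b, Fin.rev_rev]
  · intro h a b
    have := congrFun (congrFun h a.rev) b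
    rwa [h1, Matrix.neg_apply, h2, Fin.rev_rev] at this

/-- the reflected list of terms -/
def flip (L : List (Tm0 16)) : List (Tm0 16) := L.map fun e => (e.2.1.rev, e.1.rev, -e.2.2)

theorem evT0_flip (L : List (Tm0 16)) (a b : Fin 16) :
    evT0 K (flip L) b.rev a.rev = -evT0 K L a b := by
  induction L with
  | nil => simp [flip]
  | cons e L ih =>
    rw [flip, List.map_cons, ← flip, evT0_cons, evT0_cons, Matrix.add_apply, Matrix.add_apply, ih,
      neg_add]
    congr 1
    by_cases h : e.1 = a ∧ e.2.1 = b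
    · simp [Matrix.single, h]
    · have h' : ¬ (e.2.1 = b ∧ e.1 = a) := fun k => h k.symm
      simp [Matrix.single, h, h']

theorem sk_of {L : List (Tm0 16)} (h : (flip L).reverse = L) : evT0 K L ∈ Sk := fun a b => by
  rw [← evT0_flip]
  nth_rewrite 1 [← h]
  rw [evT0, List.map_reverse, List.sum_reverse, ← evT0]

theorem chk1 : (∀ i < 8, (flip (d8H i)).reverse = d8H i) ∧
    ∀ r < 240, (flip (d8E r)).reverse = d8E r := by
  decide +kernel

theorem rho_mem (v : V) : ρ8 v ∈ Sk := by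
  rw [ρ8, rhoT, Fintype.linearCombination_apply]
  refine Submodule.sum_mem _ fun w _ => Submodule.smul_mem _ _ ?_
  rcases w with i | r
  · exact sk_of (chk1.1 i i.2)
  · exact sk_of (chk1.2 r r.2)

/-- the functionals dual to the simple coroots -/
def dH (i : ℕ) : List (Tm0 16) := (List.finRange 16).map fun a => (a, a, gt
  [[0, -1, -1, -1, -1, -1, -1, -1], [1, -1, -1, -1, -1, -1, -1, 1], [0, 1, 1, 1, 1, 1, 0, 0],
    [-1, 1, 1, 1, 1, 1, 0, 0], [1, 1, 1, 1, 1, 0, 0, 0], [0, 1, 1, 1, 0, 0, 0, 0],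
    [-1, 1, 1, 0, 0, 0, 0, 0], [1, 1, 0, 0, 0, 0, 0, 0]] i a)

theorem chk2 : (∀ i < 8, ∀ j < 8, (pairT (dH i) (d8H j) - if j = i then 1 else 0) % 3 = 0) ∧
    (∀ i < 8, ∀ r < 240, pairT (dH i) (d8E r) = 0) ∧
    ∀ r < 240, ∀ j < 8, pairT ((d8E r).take 1) (d8H j) = 0 := by
  decide +kernel

theorem chk3 : ∀ r < 240, (gt rcE8 r 2 + gt rcE8 r 3) % 2 = 1 ∨
    ∀ s < 240, pairT ((d8E r).take 1) (d8E s) = if s = r then 1 else 0 := by
  decide +kernel

theorem f1_eq (r : Rt) : f1 r = gt rcE8 r 2 + gt rcE8 r 3 := by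
  rw [f1, vN]
  simp only [rc_eq C8 tabOKE8]
  change ∑ j : Fin 8, gt rcE8 r j * (([0, 0, 1, 1, 0, 0, 0, 0] : List ℕ).getD j 0 : ℕ) = _
  simp [Fin.sum_univ_eight]

theorem z0_f1 : z0 2 (fun r => f1 r - 0) = 112 := by
  simp only [z0, f1_eq]
  decide +kernel

theorem coord (v : V) (hv : ρ8 v = 0) (P : List (Tm0 16)) (w : chevE8.Idx)
    (h : ∀ w', ((pairT P (Sum.elim (fun i : Fin chevE8.rank => d8H i)
      (fun s : Fin chevE8.nroots => d8E s) w') : ℤ) : K) = if w' = w then 1 else 0) : v w = 0 := by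
  obtain ⟨f, hf⟩ := exists_pairT (F := K) P
  have h1 := congrArg f hv
  rw [ρ8, rhoT, Fintype.linearCombination_apply, map_sum, map_zero] at h1
  rw [← h1, Finset.sum_eq_single w]
  · have := h w
    rcases w with w | w <;> simp only [Sum.elim_inl, Sum.elim_inr] at this ⊢ <;>
      simp [hf, this]
  · intro w' _ hw
    have := h w'
    rcases w' with w' | w' <;> simp only [Sum.elim_inl, Sum.elim_inr] at this ⊢ <;>
      simp [hf, this, hw]
  · simp

theorem inj (mu : MuStmt) {z : GK} (hz : Lab C8 (-1) z f1) {v : V} (hv : v ∈ eig z 1)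
    (h : ρ8 v = 0) : v = 0 := by
  funext w
  rcases w with i | r
  · refine coord v h (dH i) _ ?_
    rintro (j | s)
    · have h1 := (CharP.intCast_eq_zero_iff K 3 _).2
        (Int.dvd_of_emod_eq_zero (chk2.1 i i.2 j j.2))
      rw [Int.cast_sub, sub_eq_zero] at h1
      rw [Sum.elim_inl, h1]
      simp [Fin.ext_iff]
    · rw [Sum.elim_inr, chk2.2.1 i i.2 s s.2]
      simp
  · rcases chk3 r r.2 with h1 | h1
    · refine ((mu.2.1 _ z _ hz 1 v).1 hv).2 r fun e => two_ne ?_
      rw [Odd.neg_one_zpow (f1_eq r ▸ Int.odd_iff.2 h1)] at e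
      simp only [Units.val_neg, Units.val_one] at e
      linear_combination -e
    · refine coord v h ((d8E r).take 1) _ ?_
      rintro (j | s)
      · rw [Sum.elim_inl, chk2.2.2 r r.2 j j.2]
        simp
      · rw [Sum.elim_inr, h1 s s.2]
        simp [Fin.ext_iff]

/-- the entries above the antidiagonal -/
noncomputable def res : M16 →ₗ[K] ({p : Fin 16 × Fin 16 // (p.1 : ℕ) + p.2 < 15} → K) where
  toFun X p := X p.1.1 p.1.2
  map_add' _ _ := rfl
  map_smul' _ _ := rfl

theorem res_inj {X : M16} (hX : X ∈ Sk) (h : res X = 0) : X = 0 := by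
  have h1 : ∀ a b : Fin 16, (a : ℕ) + b < 15 → X a b = 0 := fun a b k => congrFun h ⟨(a, b), k⟩
  ext a b
  rcases lt_trichotomy ((a : ℕ) + b) 15 with k | k | k
  · exact h1 a b k
  · have h2 := hX a b
    rw [show b.rev = a from Fin.ext (by rw [Fin.val_rev]; omega),
      show a.rev = b from Fin.ext (by rw [Fin.val_rev]; omega)] at h2
    exact (mul_eq_zero.1 (show 2 * X a b = 0 by linear_combination h2)).resolve_left two_ne
  · have h2 := hX a b
    rw [h1 _ _ (by rw [Fin.val_rev, Fin.val_rev]; omega)] at h2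
    exact neg_eq_zero.1 h2.symm

theorem rep1b (mu : MuStmt) : Rep1bStmt := by
  intro z hz
  refine ⟨fun v => mem_Sk.1 (rho_mem v), fun X hX => ?_, fun v hv => inj mu hz hv⟩
  have h1 : finrank K (eig z 1) = 120 := by
    have := mu.2.2.1 _ 2 z _ prim2 hz 0
    rw [z0_f1, zpow_zero, Units.val_one, if_pos Int.cast_zero] at this
    exact this
  have h2 : finrank K ({p : Fin 16 × Fin 16 // (p.1 : ℕ) + p.2 < 15} → K) = 120 := by
    rw [finrank_fintype_fun_eq_card]
    decide +kernel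
  obtain ⟨v, hv⟩ := (LinearMap.injective_iff_surjective_of_finrank_eq_finrank (h1.trans h2.symm)
    (f := res ∘ₗ ρ8 ∘ₗ (eig z 1).subtype)).1 ((injective_iff_map_eq_zero _).2 fun v hv =>
      Subtype.ext (inj mu hz v.2 (res_inj (rho_mem _) hv))) (res X)
  refine ⟨v, v.2, sub_eq_zero.1 (res_inj (sub_mem (rho_mem _) (mem_Sk.2 hX)) ?_)⟩
  rw [map_sub, ← hv]
  exact sub_self _

end Cfsg.Agent.H52.E83Rep1b
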