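import Mathlib
import Cfsg.Agent.H11.ElDefs

/-!
# Basic facts on a class of subgroups of order 11
-/

set_option autoImplicit false

namespace Cfsg.Agent.H52.ElMB

open Subgroup Cfsg.Agent.H11.EL

universe u

variable {G : Type u} [Group G] [Finite G]

theorem eq_zpowers {A : Subgroup G} (hA : Nat.card A = 11) {a : G} (ha : a ∈ A) (h1 : a ≠ 1) :
    zpowers a = A := by
  have hle : zpowers a ≤ A := (zpowers_le).2 ha
  have hd : Nat.card (zpowers a) ∣ 11 := hA ▸ card_dvd_of_le hle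
  rcases (Nat.dvd_prime (by norm_num)).1 hd with h | h
  · exact absurd (zpowers_eq_bot.1 (card_eq_one.1 h)) h1
  · exact eq_of_le_of_card_ge hle (by rw [h, hA])

theorem exists_gen {A : Subgroup G} (hA : Nat.card A = 11) : ∃ a : G, a ≠ 1 ∧ zpowers a = A := by
  have : A ≠ ⊥ := by rintro rfl; simp at hA
  obtain ⟨⟨a, ha⟩, h1⟩ := ne_bot_iff_exists_ne_one.1 this
  have h2 : a ≠ 1 := fun h => h1 (Subtype.ext h)
  exact ⟨a, h2, eq_zpowers hA ha h2⟩

omit [Finite G] in
theorem not_norm {E L : Subgroup G} (hE : Nat.card E = 11) (hle : E ≤ L) (hs : IsSimpleGroup L)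
    (hL : Nat.card L ≠ 11) : ¬ L ≤ Nm E := by
  intro h
  have hc : Nat.card (E.subgroupOf L) = 11 := by
    rw [← hE]; exact Nat.card_congr (subgroupOfEquivOfLe hle).toEquiv
  rcases hs.eq_bot_or_eq_top_of_normal _ ((normal_subgroupOf_iff_le_normalizer hle).2 h) with h | h
  · rw [h] at hc; simp at hc
  · rw [h, card_top] at hc; exact hL hc

omit [Finite G] in
theorem ct_le_nm (A : Subgroup G) : Ct A ≤ Nm A := centralizer_le_normalizer _

omit [Finite G] in
theorem ct_anti {A B : Subgroup G} (h : A ≤ B) : Ct B ≤ Ct A := centralizer_le h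

theorem semi (la : LAStmt.{u}) (ja : JAStmt.{u}) {D : Set (Subgroup G)} (h : Cls D) :
    ∀ A ∈ D, ∀ E ∈ D, ∀ a ∈ A, a ≠ 1 → a ∈ Nm E → E = A := by
  intro A hA E hE a ha h1 hn
  by_contra hne
  have hle : A ⊔ E ≤ Nm E :=
    sup_le (by rw [← eq_zpowers (h.card A hA) ha h1]; exact zpowers_le.2 hn) le_normalizer
  rcases h.pair A hA E hE (Ne.symm hne) with hp | hp
  · exact not_norm (h.card E hE) le_sup_right (la _ hp).simple (by rw [(la _ hp).card]; norm_num) hle
  · exact not_norm (h.card E hE) le_sup_right (ja _ hp).simple (by rw [(ja _ hp).card]; norm_num) hle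

theorem tri {A : Subgroup G} (hA : Nat.card A = 11) {g : G} (hg : g ∈ Nm A) :
    g ∈ Ct A ∨ Ex g A (-1) ∨ Big g A := by
  obtain ⟨a, -, ha⟩ := exists_gen hA
  have h1 : g * a * g⁻¹ ∈ zpowers a := by
    rw [ha]; exact (mem_normalizer_iff.1 hg a).1 (ha ▸ mem_zpowers a)
  obtain ⟨i, hi⟩ := mem_zpowers_iff.1 h1
  have hex : Ex g A i := by
    intro x hx
    rw [← ha] at hx
    obtain ⟨n, rfl⟩ := mem_zpowers_iff.1 hx
    rw [← conj_zpow, ← hi, ← zpow_mul, ← zpow_mul, mul_comm]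
  have h11 : ∀ x ∈ A, ∀ j : ℤ, (11 : ℤ) ∣ i - j → x ^ i = x ^ j := by
    rintro x hx j ⟨c, hc⟩
    have : x ^ (11 : ℤ) = 1 := by
      have := congrArg Subtype.val (pow_card_eq_one' (x := (⟨x, hx⟩ : A)))
      rw [hA] at this
      exact (zpow_natCast x 11).trans this
    rw [show i = 11 * c + j by omega, zpow_add, zpow_mul, this, one_zpow, one_mul]
  by_cases hd : (11 : ℤ) ∣ i ^ 2 - 1
  · rw [show i ^ 2 - 1 = (i - 1) * (i - -1) by ring] at hd
    rcases (Int.prime_iff_natAbs_prime.2 (by norm_num) : Prime (11 : ℤ)).dvd_or_dvd hd with h | h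
    · refine Or.inl (mem_centralizer_iff.2 fun x hx => ?_)
      have := hex x hx
      rw [h11 x hx 1 h, zpow_one, mul_inv_eq_iff_eq_mul] at this
      exact this.symm
    · exact Or.inr (Or.inl fun x hx => by rw [hex x hx, h11 x hx _ h])
  · exact Or.inr (Or.inr ⟨i, hex, hd⟩)

theorem mb (la : LAStmt.{u}) (lc1 : LC1Stmt.{u}) (lc : LCStmt.{u}) (ja : JAStmt.{u}) :
    MBStmt.{u} := by
  intro G _ _ D h
  have hs := semi la ja h
  refine ⟨hs, ?_, ?_, fun A hA g hg => tri (h.card A hA) hg, ?_⟩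
  · intro A hA B hB g hg hn
    by_cases hAB : A = B
    · subst hAB; rwa [sup_idem]
    rcases h.pair A hA B hB hAB with hp | hp
    · have hl : LP A B := ⟨h.card A hA, h.card B hB, hAB, hp⟩
      obtain ⟨f, s, hf⟩ := lc1 A B hl
      exact (lc A B f s hl hf).cen g hg hn
    · have hJ := ja _ hp
      have hN : g ∈ Nm (A ⊔ B) := by
        rw [← cj_eq_iff, cj_sup, cj_eq_iff.2 (ct_le_nm A hg), cj_eq_iff.2 hn]
      obtain ⟨k, hk, l, hl, rfl⟩ := hJ.inn g hN
      have h1 : l ∈ Ct A := (mul_mem_cancel_left (ct_anti le_sup_left hk)).1 hg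
      have h2 : l ∈ Nm B := (mul_mem_cancel_left (ct_le_nm B (ct_anti le_sup_right hk))).1 hn
      have h3 : l ∈ A := hJ.cent A ⟨le_sup_left, h.card A hA⟩ l hl h1
      by_cases h4 : l = 1
      · rwa [h4, mul_one]
      · exact absurd (hs A hA B hB l h3 h4 h2).symm hAB
  · intro X hX A hA hle E hE
    have : ∃ g ∈ X, cj g A = E := by
      rcases hX with hp | hp
      · exact (la _ hp).tr A ⟨hle, h.card A hA⟩ E hE
      · exact (ja _ hp).tr A ⟨hle, h.card A hA⟩ E hE
    obtain ⟨g, -, rfl⟩ := this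
    exact h.conj A hA g
  · obtain ⟨A, hA, -⟩ := h.two
    have : Fact (Nat.Prime 11) := ⟨by norm_num⟩
    have hp : IsPGroup 11 A := IsPGroup.of_card (n := 1) (by rw [h.card A hA, pow_one])
    have h1 := hp.card_modEq_card_fixedPoints (Pt h)
    obtain ⟨A₀, rfl⟩ : ∃ A₀ : Pt h, A₀.1 = A := ⟨⟨A, hA⟩, rfl⟩
    have h2 : MulAction.fixedPoints A₀.1 (Pt h) = {A₀} := by
      ext E
      rw [MulAction.mem_fixedPoints, Set.mem_singleton_iff]
      constructor
      · intro hE
        obtain ⟨a, ha1, ha⟩ := exists_gen (h.card _ hA)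
        have haA : a ∈ A₀.1 := ha ▸ mem_zpowers a
        exact Subtype.ext (hs _ hA E.1 E.2 a haA ha1 ((pt_fix h a E).1 (hE ⟨a, haA⟩)))
      · rintro rfl a
        exact (pt_fix h a.1 _).2 (le_normalizer a.2)
    rw [h2, pt_card, Nat.card_unique] at h1
    exact h1

end Cfsg.Agent.H52.ElMB
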