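import Cfsg.Agent.H98.GbL

/-! Project GB, piece DIV: divisibility of the degrees of the semisimple parts. -/

set_option autoImplicit false
open Cfsg Finset

namespace Cfsg.Agent.H52.GbDiv

open Cfsg.Agent.H98.GB

universe u

theorem addOrderOf_dvd_sum {A : Type*} [AddCommGroup A] [Fintype A] (c : A) (f : A → ℕ)
    (hf : ∀ a, f (a + c) = f a) : addOrderOf c ∣ ∑ a, f a := by
  classical
  have h1 : ∀ (n : ℕ) a, f (a + n • c) = f a := fun n => by
    induction n with
    | zero => simp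
    | succ n ih => intro a; rw [succ_nsmul, ← add_assoc, hf, ih]
  set H := AddSubgroup.zmultiples c
  have : Fintype (A ⧸ H) := Fintype.ofFinite _
  rw [← sum_fiberwise univ (fun a : A => (a : A ⧸ H))]
  refine dvd_sum fun x _ => ?_
  rw [sum_congr rfl (g := fun _ => f x.out) fun a ha => ?_, sum_const, smul_eq_mul]
  · refine Dvd.dvd.mul_right ?_ _
    have := Nat.card_congr (QuotientAddGroup.preimageMkEquivAddSubgroupProdSet H {x})
    rw [Nat.card_prod, Nat.card_zmultiples] at this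
    refine ⟨Nat.card ({x} : Set (A ⧸ H)), ?_⟩
    rw [← this, ← Fintype.card_coe, ← Nat.card_eq_fintype_card]
    exact Nat.card_congr (Equiv.subtypeEquivRight fun a => by simp)
  · have h2 : -x.out + a ∈ H := QuotientAddGroup.eq.1 ((QuotientAddGroup.out_eq' x).trans
      (mem_filter.1 ha).2.symm)
    obtain ⟨n, hn⟩ := (mem_multiples_iff_mem_zmultiples.2 h2 : _ ∈ AddSubmonoid.multiples c)
    rw [← h1 n x.out, show n • c = -x.out + a from hn, add_neg_cancel_left]

variable {F : Type u} [Field F] [Fintype F] [DecidableEq F] {C : Ctx F}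

theorem card_fiber (h : C.Lab) (φ : C.Φ) : #(univ.filter fun a => C.mkΦ a = φ) = C.dg φ := by
  have e : ∀ n : ℕ, (fun x => C.qL * x)^[n] (C.out φ) = C.qL ^ n * C.out φ := fun n => by
    rw [mul_left_iterate]
  rw [← card_range (C.dg φ)]
  refine (card_bij (fun n _ => C.qL ^ n * C.out φ) (fun n _ => ?_) (fun n hn m hm e' => ?_)
    fun a ha => ?_).symm
  · exact mem_filter.2 ⟨mem_univ _, ((h.mk_eq _ _).2 ⟨n, rfl⟩).symm.trans (h.mk_out φ)⟩
  · exact Function.iterate_injOn_Iio_minimalPeriod (mem_range.1 hn) (mem_range.1 hm)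
      ((e n).trans (e'.trans (e m).symm))
  · obtain ⟨i, rfl⟩ := (h.mk_eq _ _).1 ((h.mk_out φ).trans (mem_filter.1 ha).2.symm)
    refine ⟨i % C.dg φ, mem_range.2 (Nat.mod_lt _ (h.dg_pos φ)), ?_⟩
    rw [← e, ← e]
    exact Function.iterate_mod_minimalPeriod_eq

theorem q_inj (h : C.Lab) : Function.Injective fun a => C.qL * a := fun a b e => by
  have h1 := (h.dg_iff (a - b) _).2 dvd_rfl
  obtain ⟨k, hk⟩ := Nat.exists_eq_succ_of_ne_zero (h.dg_pos (C.mkΦ (a - b))).ne'
  rw [hk, pow_succ, mul_assoc, mul_sub, show C.qL * a = C.qL * b from e, sub_self, mul_zero] at h1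
  exact sub_eq_zero.1 h1.symm

theorem div (hL : LABStmt.{u}) : DIVStmt.{u} := by
  intro F _ _ _ C c i Λ hq hc hΛ Γ
  have h := hL F C
  have u0 : C.uu * c = 0 := by
    have h1 : addOrderOf (C.uu * c) ∣ C.p ^ i := by
      rw [addOrderOf_dvd_iff_nsmul_eq_zero, ← mul_smul_comm, ← hc, addOrderOf_nsmul_eq_zero, mul_zero]
    have h2 := (h.uu_iff (C.uu * c)).1 (by rw [← mul_assoc, h.uu_idem])
    exact AddMonoid.addOrderOf_eq_one_iff.1
      (Nat.Coprime.eq_one_of_dvd (((Nat.Prime.coprime_iff_not_dvd C.hp).2 h2).symm.pow_right i) h1)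
  set w : C.L → ℕ := fun a => H19.wtS (Λ (C.mkΦ a)) with hw
  have w1 : ∀ a, w (a + c) = w a := fun a => by
    simp only [hw]
    conv_lhs => rw [← hΛ]
    rw [Ctx.twL, h.tw_mk _ _ (by rw [mul_neg, hq]), add_neg_cancel_right]
  have w2 : ∀ a, w (C.qL * a) = w a := fun a => by
    simp only [hw]
    rw [← (h.mk_eq a (C.qL * a)).2 ⟨1, by rw [pow_one]⟩]
  set S : C.L → ℕ := fun b => ∑ a, if C.uu * a = b then w a else 0 with hS
  have S1 : ∀ b, S (C.qL * b) = S b := fun b => by
    simp only [hS]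
    refine (Fintype.sum_bijective _ (Finite.injective_iff_bijective.1 (q_inj h)) _ _ fun a => ?_).symm
    rw [w2, mul_left_comm]
    exact if_congr (q_inj h).eq_iff.symm rfl rfl
  have S2 : ∀ (n : ℕ) b, S (C.qL ^ n * b) = S b := fun n b => by
    induction n with
    | zero => simp
    | succ n ih => rw [pow_succ', mul_assoc, S1, ih]
  have S3 : C.p ^ i ∣ S (C.out Γ) := hc ▸ addOrderOf_dvd_sum c _ fun a => by
    rw [mul_add, u0, add_zero, w1]
  have e1 : C.sm Λ Γ = ∑ a, if C.mkΦ (C.uu * a) = Γ then w a else 0 := by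
    rw [Ctx.sm, sum_filter, ← sum_fiberwise univ C.mkΦ]
    refine sum_congr rfl fun φ _ => ?_
    rw [sum_congr rfl (g := fun _ => if C.lp φ = Γ then H19.wtS (Λ φ) else 0) fun a ha => by
      rw [← (mem_filter.1 ha).2, h.lp_mk], sum_const, card_fiber h, smul_eq_mul, mul_ite, mul_zero]
  have e2 : C.sm Λ Γ = ∑ b ∈ univ.filter fun b => C.mkΦ b = Γ, S b := by
    rw [e1, sum_comm]
    refine sum_congr rfl fun a _ => ?_
    rw [sum_ite_eq]
    simp
  rw [e2, sum_congr rfl (g := fun _ => S (C.out Γ)) fun b hb => by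
    obtain ⟨n, rfl⟩ := (h.mk_eq _ _).1 ((h.mk_out Γ).trans (mem_filter.1 hb).2.symm)
    exact S2 n _, sum_const, card_fiber h, smul_eq_mul, mul_comm]
  exact Nat.mul_dvd_mul_left _ S3

end Cfsg.Agent.H52.GbDiv
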