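import Cfsg.Agent.H98.GbG

/-!
# Project GB: the bound orbit by orbit
-/

set_option autoImplicit false

namespace Cfsg.Agent.H52.GbNumA

open Cfsg.Agent.H98.GB MulAction

theorem two_terms (z s : ℕ) : z ^ (s + 1) + (s + 1) * z ^ s ≤ (z + 1) ^ (s + 1) := by
  induction s with
  | zero => simp
  | succ s ih =>
    calc z ^ (s + 1 + 1) + (s + 1 + 1) * z ^ (s + 1)
        ≤ z ^ (s + 1 + 1) + (s + 1 + 1) * z ^ (s + 1) + (s + 1) * z ^ s := Nat.le_add_right _ _
      _ = (z ^ (s + 1) + (s + 1) * z ^ s) * (z + 1) := by ring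
      _ ≤ (z + 1) ^ (s + 1) * (z + 1) := Nat.mul_le_mul_right _ ih
      _ = _ := (pow_succ _ _).symm

theorem arith {a x t : ℕ} (ht : 0 < t) :
    a * (x ^ t + (t - 1) * x ^ (t / 2)) ≤ (a * x + 1) ^ t := by
  obtain ⟨s, rfl⟩ : ∃ s, t = s + 1 := ⟨t - 1, by omega⟩
  refine le_trans ?_ (two_terms _ s)
  rw [mul_add, Nat.add_sub_cancel, mul_pow, mul_pow]
  refine add_le_add (Nat.mul_le_mul_right _ (Nat.le_self_pow (by omega) a)) ?_
  rcases Nat.eq_zero_or_pos s with rfl | hs
  · simp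
  have h1 : x ^ ((s + 1) / 2) ≤ x ^ s := by
    rcases Nat.eq_zero_or_pos x with rfl | hx
    · rw [zero_pow (by omega)]; exact Nat.zero_le _
    · exact Nat.pow_le_pow_right hx (by omega)
  rw [mul_left_comm]
  exact Nat.mul_le_mul (Nat.le_succ s) (Nat.mul_le_mul (Nat.le_self_pow (by omega) a) h1)

theorem numa (hG : NUMGStmt) : NUMAStmt := by
  intro A I _ _ _ _ X K a y hX hK hy hle hc hb
  classical
  refine (hG A I X K a hX hK hle hc).trans (Nat.mul_le_mul_left _ ?_)
  have := Fintype.ofFinite (orbitRel.Quotient A I)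
  rw [finprod_eq_prod_of_fintype, ← Finset.prod_fiberwise Finset.univ
    (fun i : I => (Quotient.mk _ i : orbitRel.Quotient A I)) y]
  refine Finset.prod_le_prod' fun O _ => ?_
  have hm : ∀ i : I, (Quotient.mk _ i : orbitRel.Quotient A I) = O ↔ i ∈ orbit A O.out := fun i => by
    rw [← orbitRel_apply, ← Quotient.eq, Quotient.out_eq]
  have h1 : ∏ i with (Quotient.mk _ i : orbitRel.Quotient A I) = O, y i =
      y O.out ^ Nat.card (orbit A O.out) := by
    rw [Finset.prod_congr rfl (g := fun _ => y O.out) fun i hi => by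
      obtain ⟨g, rfl⟩ := (hm i).1 (Finset.mem_filter.1 hi).2
      exact hy g _, Finset.prod_const, Nat.card_eq_fintype_card, Fintype.card_of_subtype]
    intro i
    rw [Finset.mem_filter, hm]
    simp
  have : Nonempty (orbit A O.out) := ⟨⟨_, mem_orbit_self _⟩⟩
  rw [h1]
  exact (arith Nat.card_pos).trans (Nat.pow_le_pow_left (hb _) _)

end Cfsg.Agent.H52.GbNumA
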