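import Cfsg.Agent.H56.GbGram

/-! Project GB, piece ORTH: the Schur elements are orthonormal. -/

set_option autoImplicit false
open Cfsg Finset
open scoped ComplexConjugate MatrixGroups

namespace Cfsg.Agent.H52.GbOrth

open Cfsg.Agent.H98.GB Cfsg.Agent.H19

universe u

theorem row {N : ℕ} {S T : Finset ℕ} (hS : #S = N) (hT : #T = N) (h : wtS S ≤ N) :
    ∑ μ ∈ Par (wtS S), (if μ ∈ Par (wtS T) then
      ((chiS N S μ * chiS N T μ : ℤ) : ℂ) / zM μ else 0) = if S = T then 1 else 0 := by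
  by_cases e : wtS T = wtS S
  · have h0 := sum_typ (α := Fin (wtS S)) fun μ => ((chiS N S μ * chiS N T μ : ℤ) : ℂ)
    have h1 := classInner_symChi (α := Fin (wtS S)) (N := N) (S := S) (T := T) (by simpa using h)
      (mem_Lam'.2 ⟨hS, by simp⟩) (mem_Lam'.2 ⟨hT, by simp [e]⟩)
    rw [H11.classInner_def] at h1
    simp only [conj_symChi] at h1
    simp only [symChi_apply] at h1
    rw [Fintype.card_fin] at h0
    rw [e, sum_congr rfl fun μ hμ => if_pos hμ, ← h0, ← h1]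
    simp
  · rw [if_neg fun c => e (by rw [c])]
    exact sum_eq_zero fun μ hμ => if_neg fun c => e ((mem_Par.1 c).1.symm.trans (mem_Par.1 hμ).1)

variable {Φ : Type} [Fintype Φ]

theorem wtS_le {dg : Φ → ℕ} (hd : ∀ φ, 0 < dg φ) (Λ : Φ → Finset ℕ) (φ : Φ) :
    wtS (Λ φ) ≤ wt dg Λ :=
  (Nat.le_mul_of_pos_left _ (hd φ)).trans
    (single_le_sum (f := fun φ => dg φ * wtS (Λ φ)) (fun _ _ => Nat.zero_le _) (mem_univ φ))

theorem good [DecidableEq Φ] (dg : Φ → ℕ) {In : Φ → Prop} {N : ℕ} {Λ : Φ → Finset ℕ}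
    (hL : LabOn N In Λ) {μ : Φ → Multiset ℕ}
    (hμ : μ ∈ Fintype.piFinset fun φ => Par (wtS (Λ φ))) : wm dg μ = wt dg Λ ∧ MonOn In μ := by
  have h := fun φ => mem_Par.1 (Fintype.mem_piFinset.1 hμ φ)
  refine ⟨sum_congr rfl fun φ _ => by rw [(h φ).1], fun φ => ⟨(h φ).2, fun hn => ?_⟩⟩
  have h1 := (h φ).1
  rw [(hL φ).2 hn, wtS_range] at h1
  refine Multiset.eq_zero_of_forall_notMem fun r hr => ?_
  have h2 := (h φ).2 r hr
  have h3 := Multiset.single_le_sum (fun _ _ => Nat.zero_le _) _ hr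
  omega

theorem orth (hM : MONStmt.{u}) (hO : MORTHStmt.{u}) : ORTHStmt.{u} := by
  intro F _ _ _ η H Φ _ _ dg In n0 N P k0 v hN S G Λ Λ' hL hL' hw hw'
  have O := hO F η H Φ dg In n0 P k0 v k0 v _ S S G
  rw [(hM H.A Φ N P).1 Λ, (hM H.A Φ N P).1 Λ']
  constructor
  · intro n hn
    simp only [mul_sum, mul_smul_comm, map_sum, map_smul, Finset.sum_apply, Pi.smul_apply]
    refine sum_eq_zero fun μ hμ => ?_
    obtain ⟨e, h⟩ := good dg hL hμ
    rw [(O μ μ h h (e ▸ hw) (e ▸ hw)).1 n (e ▸ hn), smul_zero]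
  rw [H56.GbGram.ip_sum]
  have key : ∀ μ ∈ Fintype.piFinset fun φ => Par (wtS (Λ φ)),
      ∑ μ' ∈ Fintype.piFinset fun φ => Par (wtS (Λ' φ)),
        (∏ φ, ((chiS N (Λ φ) (μ φ) : ℂ) / (zM (μ φ) : ℂ))) *
          conj (∏ φ, ((chiS N (Λ' φ) (μ' φ) : ℂ) / (zM (μ' φ) : ℂ))) *
          H.ip (k0 + wt dg Λ) (v * mon P μ) (v * mon P μ') =
      H.ip k0 v v * ∏ φ, (if μ φ ∈ Par (wtS (Λ' φ)) then
        ((chiS N (Λ φ) (μ φ) * chiS N (Λ' φ) (μ φ) : ℤ) : ℂ) / zM (μ φ) else 0) := fun μ hμ => by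
    obtain ⟨e, h⟩ := good dg hL hμ
    rw [sum_congr rfl fun μ' hμ' => by
      rw [← e, (O μ μ' h (good dg hL' hμ').2 (e ▸ hw) ((good dg hL' hμ').1 ▸ hw')).2, mul_ite,
        mul_zero], sum_ite_eq]
    split_ifs with c
    · rw [mul_left_comm, map_prod, ← prod_mul_distrib, ← prod_mul_distrib]
      refine congrArg _ (prod_congr rfl fun φ _ => ?_)
      have hz : (zM (μ φ) : ℂ) ≠ 0 := Nat.cast_ne_zero.2 (zM_pos (h φ).1).ne'
      have e2 : ((μ φ).map fun k : ℕ => (k : ℂ)).prod *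
          ∏ r ∈ (μ φ).toFinset, (((μ φ).count r).factorial : ℂ) = zM (μ φ) := by
        rw [zM]; push_cast; rfl
      rw [if_pos (Fintype.mem_piFinset.1 c φ), e2, map_div₀, map_intCast, map_natCast]
      push_cast
      field_simp
    · obtain ⟨φ, hφ⟩ := not_forall.1 (mt Fintype.mem_piFinset.2 c)
      rw [prod_eq_zero (mem_univ φ) (if_neg hφ), mul_zero]
  rw [sum_congr rfl key, ← mul_sum, ← prod_univ_sum (fun φ => Par (wtS (Λ φ))) fun φ ν =>
    if ν ∈ Par (wtS (Λ' φ)) then ((chiS N (Λ φ) ν * chiS N (Λ' φ) ν : ℤ) : ℂ) / zM ν else 0,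
    prod_congr rfl fun φ _ => row (hL φ).1 (hL' φ).1 (((wtS_le S.pos Λ φ).trans hw).trans hN)]
  split_ifs with c
  · simp [c]
  · obtain ⟨φ, hφ⟩ := not_forall.1 (mt funext c)
    rw [prod_eq_zero (mem_univ φ) (if_neg hφ), mul_zero]

end Cfsg.Agent.H52.GbOrth
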