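import Cfsg.Agent.H44.K5Defs

/-! The Hermite bound for positive definite integral quadratic forms. -/

set_option autoImplicit false

namespace Cfsg.Agent.H52.K5Herm

open Cfsg Cfsg.Agent.H44.K5 Matrix

theorem ent {m : ℕ} (U A : Matrix (Fin (m + 1)) (Fin (m + 1)) ℤ) :
    (Uᵀ * A * U) 0 0 = (fun i => U i 0) ⬝ᵥ A *ᵥ (fun i => U i 0) := by
  rw [dotProduct_mulVec]; rfl

theorem detc {m : ℕ} (A : Matrix (Fin (m + 1)) (Fin (m + 1)) ℤ) (h : ∀ i : Fin m, A i.succ 0 = 0) :
    A.det = A 0 0 * (A.submatrix Fin.succ Fin.succ).det := by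
  rw [det_succ_column_zero, Fin.sum_univ_succ]
  simp [h]

theorem detr {m : ℕ} (A : Matrix (Fin (m + 1)) (Fin (m + 1)) ℤ) (h : ∀ i : Fin m, A 0 i.succ = 0) :
    A.det = A 0 0 * (A.submatrix Fin.succ Fin.succ).det := by
  rw [det_succ_row_zero, Fin.sum_univ_succ]
  simp [h]

theorem qf {m : ℕ} (B : Matrix (Fin (m + 1)) (Fin (m + 1)) ℤ) (hs : ∀ i j, B i j = B j i)
    (k : ℤ) (v : Fin m → ℤ) :
    (Fin.cons k v : Fin (m + 1) → ℤ) ⬝ᵥ B *ᵥ (Fin.cons k v : Fin (m + 1) → ℤ) =
      B 0 0 * k ^ 2 + 2 * k * (∑ j, B 0 j.succ * v j) + ∑ i, v i * ∑ j, B i.succ j.succ * v j := by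
  simp only [dotProduct, mulVec, Fin.sum_univ_succ, Fin.cons_zero, Fin.cons_succ, mul_add,
    Finset.sum_add_distrib]
  have h : ∑ i, v i * (B i.succ 0 * k) = k * ∑ j, B 0 j.succ * v j := by
    rw [Finset.mul_sum]
    exact Finset.sum_congr rfl fun i _ => by rw [hs i.succ 0]; ring
  rw [h]; ring

theorem qs {m : ℕ} (B : Matrix (Fin (m + 1)) (Fin (m + 1)) ℤ) (hs : ∀ i j, B i j = B j i)
    (v : Fin m → ℤ) :
    v ⬝ᵥ (Matrix.of fun i j : Fin m => B 0 0 * B i.succ j.succ - B i.succ 0 * B 0 j.succ) *ᵥ v =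
      B 0 0 * (∑ i, v i * ∑ j, B i.succ j.succ * v j) - (∑ j, B 0 j.succ * v j) ^ 2 := by
  simp only [dotProduct, mulVec, Matrix.of_apply]
  rw [sq, Finset.sum_mul_sum, Finset.mul_sum, ← Finset.sum_sub_distrib]
  refine Finset.sum_congr rfl fun i _ => ?_
  rw [Finset.mul_sum, Finset.mul_sum, Finset.mul_sum, ← Finset.sum_sub_distrib]
  exact Finset.sum_congr rfl fun j _ => by rw [hs i.succ 0]; ring

theorem herm : HermStmt := by
  intro n
  induction n with
  | zero =>
    intro A _ _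
    exact ⟨1, by simp, by simp⟩
  | succ n ih =>
    intro A hA hpos
    classical
    have hcol : ∀ U : Matrix (Fin (n + 2)) (Fin (n + 2)) ℤ, IsUnit U.det → 0 < (Uᵀ * A * U) 0 0 := by
      intro U hU
      rw [ent]
      refine hpos _ fun h => hU.ne_zero (det_eq_zero_of_column_eq_zero 0 fun i => congrFun h i)
    have hex : ∃ m : ℕ, ∃ U : Matrix (Fin (n + 2)) (Fin (n + 2)) ℤ, IsUnit U.det ∧
        (Uᵀ * A * U) 0 0 = m :=
      ⟨_, 1, by simp, (Int.toNat_of_nonneg (hcol 1 (by simp)).le).symm⟩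
    obtain ⟨U, hU, hUm⟩ := Nat.find_spec hex
    refine ⟨U, hU, ?_⟩
    have hmin : ∀ W : Matrix (Fin (n + 2)) (Fin (n + 2)) ℤ, IsUnit W.det →
        (Uᵀ * A * U) 0 0 ≤ (Wᵀ * (Uᵀ * A * U) * W) 0 0 := by
      intro W hW
      have h1 : IsUnit (U * W).det := by rw [det_mul]; exact hU.mul hW
      have h2 : Wᵀ * (Uᵀ * A * U) * W = (U * W)ᵀ * A * (U * W) := by
        rw [transpose_mul]; simp only [Matrix.mul_assoc]
      have h3 := (Int.toNat_of_nonneg (hcol _ h1).le).symm
      have h4 := Nat.find_min' hex ⟨_, h1, h3⟩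
      rw [h2, hUm, h3]
      exact_mod_cast h4
    have hdet : (Uᵀ * A * U).det = A.det := by
      rw [det_mul, det_mul, det_transpose]
      rcases Int.isUnit_iff.mp hU with h | h <;> rw [h] <;> ring
    have hBs : (Uᵀ * A * U)ᵀ = Uᵀ * A * U := by
      rw [transpose_mul, transpose_mul, transpose_transpose, hA, Matrix.mul_assoc]
    have hBp : ∀ x : Fin (n + 2) → ℤ, x ≠ 0 → 0 < x ⬝ᵥ (Uᵀ * A * U) *ᵥ x := by
      intro x hx
      have h1 : U *ᵥ x ≠ 0 := fun h => hx (Matrix.eq_zero_of_mulVec_eq_zero hU.ne_zero h)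
      have h2 := hpos _ h1
      rw [← mulVec_mulVec, ← mulVec_mulVec, dotProduct_mulVec, vecMul_transpose]
      exact h2
    have ha := hcol U hU
    rw [← hdet]
    generalize Uᵀ * A * U = B at *
    have hs : ∀ i j, B i j = B j i := fun i j => (congrFun (congrFun hBs j) i)
    set S : Matrix (Fin (n + 1)) (Fin (n + 1)) ℤ :=
      Matrix.of fun i j => B 0 0 * B i.succ j.succ - B i.succ 0 * B 0 j.succ with hS
    have hSs : Sᵀ = S := by
      ext i j
      simp only [hS, transpose_apply, Matrix.of_apply]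
      rw [hs j.succ i.succ, hs j.succ 0, hs 0 i.succ]; ring
    have hSp : ∀ x : Fin (n + 1) → ℤ, x ≠ 0 → 0 < x ⬝ᵥ S *ᵥ x := by
      intro x hx
      have h1 := hBp (Fin.cons (-(∑ j, B 0 j.succ * x j)) (fun i => B 0 0 * x i)) (fun h => hx (by
        funext i
        have := congrFun h i.succ
        simpa [ha.ne'] using this))
      rw [qf B hs] at h1
      rw [hS, qs B hs]
      have e1 : ∑ j, B 0 j.succ * (B 0 0 * x j) = B 0 0 * ∑ j, B 0 j.succ * x j := by
        rw [Finset.mul_sum]; exact Finset.sum_congr rfl fun j _ => by ring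
      have e2 : ∑ i, B 0 0 * x i * ∑ j, B i.succ j.succ * (B 0 0 * x j) =
          B 0 0 ^ 2 * ∑ i, x i * ∑ j, B i.succ j.succ * x j := by
        rw [Finset.mul_sum]
        refine Finset.sum_congr rfl fun i _ => ?_
        rw [Finset.mul_sum, Finset.mul_sum, Finset.mul_sum]
        exact Finset.sum_congr rfl fun j _ => by ring
      rw [e1, e2] at h1
      refine pos_of_mul_pos_left (b := B 0 0) ?_ ha.le
      nlinarith
    have hSd : S.det = B 0 0 ^ n * B.det := by
      let E : Matrix (Fin (n + 2)) (Fin (n + 2)) ℤ := Matrix.of fun i j =>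
        Fin.cases (Fin.cases 1 (fun j' => -B 0 j'.succ) j)
          (fun i' => Fin.cases 0 (fun j' => if i' = j' then B 0 0 else 0) j) i
      have e1 : E.det = B 0 0 ^ (n + 1) := by
        rw [detc E (fun i => rfl)]
        have : E.submatrix Fin.succ Fin.succ = Matrix.diagonal fun _ => B 0 0 := by
          ext i j; simp [E, diagonal_apply]
        rw [this, det_diagonal]; simp [E]
      have e2 : (B * E).det = B 0 0 * S.det := by
        rw [detr (B * E) (fun i => by simp [E, mul_apply, Fin.sum_univ_succ (n := n + 1)]; ring)]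
        congr 1
        · simp [E, mul_apply, Fin.sum_univ_succ (n := n + 1)]
        · congr 1
          ext i j
          simp [E, hS, mul_apply, Fin.sum_univ_succ (n := n + 1)]; ring
      rw [det_mul, e1] at e2
      refine mul_left_cancel₀ ha.ne' ?_
      rw [← e2]; ring
    obtain ⟨V, hV, hVb⟩ := ih S hSs hSp
    rw [ent, hS, qs B hs, ← hS, hSd] at hVb
    set β : ℤ := ∑ j, B 0 j.succ * V j 0 with hβ
    obtain ⟨k, hk1, hk2⟩ : ∃ k : ℤ, -(B 0 0) ≤ 2 * (β + k * B 0 0) ∧ 2 * (β + k * B 0 0) ≤ B 0 0 := by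
      have h1 := Int.emod_nonneg β ha.ne'
      have h2 := Int.emod_lt_of_pos β ha
      have h3 := Int.mul_ediv_add_emod β (B 0 0)
      by_cases h : 2 * (β % B 0 0) ≤ B 0 0
      · exact ⟨-(β / B 0 0), by nlinarith, by nlinarith⟩
      · exact ⟨-(β / B 0 0) - 1, by nlinarith, by nlinarith⟩
    let W0 : Matrix (Fin (n + 2)) (Fin (n + 2)) ℤ := Matrix.of fun i j =>
      Fin.cases (Fin.cases 1 (fun _ => k) j) (fun i' => Fin.cases 0 (fun j' => V i' j') j) i
    have hW0 : IsUnit W0.det := by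
      rw [detc W0 (fun i => rfl)]
      have : W0.submatrix Fin.succ Fin.succ = V := by ext i j; rfl
      rw [this]
      simpa [W0] using hV
    have hW : IsUnit (W0.submatrix id (Equiv.swap 0 (Fin.succ 0))).det := by
      rw [det_permute']
      exact (Units.isUnit _).mul hW0
    have h5 := hmin _ hW
    have h6 : (fun i => (W0.submatrix id (Equiv.swap 0 (Fin.succ 0))) i 0) =
        (Fin.cons k (fun i => V i 0) : Fin (n + 2) → ℤ) := by
      funext i
      rw [submatrix_apply, Equiv.swap_apply_left]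
      refine Fin.cases rfl (fun i' => rfl) i
    rw [ent, h6, qf B hs, ← hβ] at h5
    generalize (∑ i, V i 0 * ∑ j, B i.succ j.succ * V j 0) = Q at h5 hVb
    generalize B 0 0 = a at *
    have h7 : 3 * a ^ 2 ≤ 4 * (a * Q - β ^ 2) := by
      have h8 : a * a ≤ a * (a * k ^ 2 + 2 * k * β + Q) := mul_le_mul_of_nonneg_left h5 ha.le
      nlinarith [mul_nonneg (sub_nonneg.mpr hk1) (sub_nonneg.mpr hk2)]
    have h9 : (3 * a ^ 2) ^ (n + 1) ≤ (4 * (a * Q - β ^ 2)) ^ (n + 1) :=
      pow_le_pow_left₀ (by positivity) h7 _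
    have hT : (n + 1) * (n + 1 + 1) / 2 = n * (n + 1) / 2 + (n + 1) := by
      have : (n + 1) * (n + 1 + 1) = n * (n + 1) + 2 * (n + 1) := by ring
      omega
    rw [hT]
    generalize n * (n + 1) / 2 = T at *
    refine le_of_mul_le_mul_left (a := a ^ n) ?_ (by positivity)
    calc a ^ n * (a ^ (n + 1 + 1) * 3 ^ (T + (n + 1))) = (3 * a ^ 2) ^ (n + 1) * 3 ^ T := by ring
      _ ≤ (4 * (a * Q - β ^ 2)) ^ (n + 1) * 3 ^ T := by gcongr
      _ = 4 ^ (n + 1) * ((a * Q - β ^ 2) ^ (n + 1) * 3 ^ T) := by rw [mul_pow]; ring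
      _ ≤ 4 ^ (n + 1) * (4 ^ T * (a ^ n * B.det)) := by gcongr
      _ = _ := by ring

end Cfsg.Agent.H52.K5Herm
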