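import Mathlib
import Cfsg.Agent.H50.L81Defs
import Cfsg.Agent.H95.FvNact2

/-! Project L81, piece WST. -/

set_option autoImplicit false

namespace Cfsg.Agent.H52.L81Wst

open Equiv Cfsg.Lie H37 H40 H34 H29 Module H82 H50.SL2S Finset H50.E83 H50.L81
open H42.Fv (al cp Sum2 Clo Pos Supp Ph sg frV)
open scoped Matrix MatrixGroups

set_option maxRecDepth 8000 in
theorem wst (hZ : ZelStmt) : WstStmt := by
  intro n hn X hX r hr A hA hD
  obtain ⟨c, hc⟩ := H42.Fv.nact2 n hn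
  have hW : P8.ν n ∈ C8.S.W := P8.ν_mem n hn
  have hcl : Clo {s | P8.ν n s ∈ A} := by
    intro a ha b hb t ht
    exact hA (P8.ν n a) ha (P8.ν n b) hb (P8.ν n t) (H42.Fv.Sum2.W ht hW)
  refine hr {s | P8.ν n s ∈ A} hcl ?_
  intro s hs0
  have hs1 : ∃ x ∈ X, ∃ h ∈ Cart, act x h (Sum.inr s) ≠ 0 := hs0
  obtain ⟨x, hx, h, hh, hs⟩ := hs1
  have key : ∃ x ∈ X, ∃ h ∈ Cart, act x h (Sum.inr (P8.ν n s)) ≠ 0 := ?_
  · exact hD (a := P8.ν n s) key
  refine ⟨x, hx, act n (frV h), ?_, ?_⟩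
  · intro u
    obtain ⟨u', rfl⟩ := (P8.ν n).surjective u
    rw [(hc _).1]
    have h0 : h (Sum.inr u') = 0 := hh u'
    simp [frV, h0]
  · have h1 := hZ.2.2.2 n x h
    rw [hX x hx] at h1
    rw [h1, (hc _).1]
    exact mul_ne_zero (c s).ne_zero (pow_ne_zero 3 hs)

end Cfsg.Agent.H52.L81Wst
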