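import Cfsg.Agent.H54.O84Defs

/-! S3384, piece E1: the centraliser of the subsystem subgroup `D₄D₄` is trivial. -/

set_option autoImplicit false
set_option maxRecDepth 100000

namespace Cfsg.Agent.H52.O84E1

open Cfsg.Agent.H54.O84 Equiv Cfsg.Lie H37 H40 H34 H29

theorem int_eq_zero {a : ℤ} (h : ∀ t : Kˣ, t ^ a = 1) : a = 0 := by
  have hne : ((2 * a.natAbs + 1 : ℕ) : K) ≠ 0 := by
    rw [Ne, CharP.cast_eq_zero_iff K 2]; omega
  have : NeZero ((2 * a.natAbs + 1 : ℕ) : K) := ⟨hne⟩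
  obtain ⟨ζ, hζ⟩ := HasEnoughRootsOfUnity.exists_primitiveRoot K (2 * a.natAbs + 1)
  have hu := hζ.isUnit (by omega)
  have h1 : IsPrimitiveRoot hu.unit (2 * a.natAbs + 1) := IsPrimitiveRoot.coe_units_iff.1 hζ
  have h2 := (h1.zpow_eq_one_iff_dvd a).1 (h _)
  refine Int.eq_zero_of_abs_lt_dvd h2 ?_
  rw [Int.abs_eq_natAbs]; omega

theorem evw_mulSingle (i : Ix) (t : Kˣ) (v : Ix → ℤ) : evw (Pi.mulSingle i t) v = t ^ v i := by
  rw [evw, Finset.prod_eq_single i (fun j _ hj => by rw [Pi.mulSingle_eq_of_ne hj, one_zpow])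
    (by simp), Pi.mulSingle_eq_same]

theorem root_eq {r s : Rt} (h : ∀ c : Ix → Kˣ, torChar chevE8 c r = torChar chevE8 c s) : r = s := by
  refine C8.wtD_inj (funext fun i => sub_eq_zero.1 (int_eq_zero fun t => ?_))
  have := h (Pi.mulSingle i t)
  rw [torChar_eq_evw, torChar_eq_evw, evw_mulSingle, evw_mulSingle] at this
  rw [zpow_sub, this, mul_inv_cancel]

theorem not_all_one (r : Rt) (h : ∀ c : Ix → Kˣ, torChar chevE8 c r = 1) : False := by
  have h1 : ∀ i, C8.R.wt r i = 0 := fun i => int_eq_zero fun t => by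
    have := h (Pi.mulSingle i t)
    rwa [torChar_eq_evw, evw_mulSingle, C8.wtD_eq] at this
  have h2 := C8.R.pair_self r
  simp only [RS.pair_def, h1, mul_zero, Finset.sum_const_zero] at h2
  omega

theorem sq_eq_one {c : Ix → Kˣ} (h : ∀ r : Rt, (r : ℕ) ∈ d0L ++ d1L → torChar chevE8 c r = 1)
    (j : Ix) {r1 r2 r3 r4 : Rt} (hm : ∀ r ∈ [r1.1, r2.1, r3.1, r4.1], r ∈ d0L ++ d1L)
    (hs : ∀ i < 8, rcN r1 i + rcN r2 i + rcN r3 i + rcN r4 i = if i = j then 2 else 0) :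
    torChar chevE8 c (C8.R.simple j) = 1 := by
  set a : Ix → Kˣ := fun j => torChar chevE8 c (C8.R.simple j) with ha
  have e : ∀ r : Rt, (r : ℕ) ∈ d0L ++ d1L → evw a (C8.R.rc r) = 1 := fun r hr =>
    (torChar_eq_prod (C := C8) c r).symm.trans (h r hr)
  have h2 : C8.R.rc r1 + C8.R.rc r2 + C8.R.rc r3 + C8.R.rc r4 = Pi.single j 1 + Pi.single j 1 := by
    funext i
    simp only [Pi.add_apply, rc_val, hs i i.2, Pi.single_apply, Fin.ext_iff]
    split_ifs <;> rfl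
  have h3 := congrArg (evw a) h2
  rw [evw_add, evw_add, evw_add, evw_add, evw_single, e r1 (hm _ (by simp)), e r2 (hm _ (by simp)),
    e r3 (hm _ (by simp)), e r4 (hm _ (by simp))] at h3
  exact Cert.units_eq_one_of_sq (by simpa using h3.symm)

theorem e1 (h : Nm1Stmt) : E1Stmt := by
  intro z hz
  have hH : ∀ g ∈ (P8.H : Set GK), Commute z g := fun g hg => hz g (h hg)
  have hN : z ∈ P8.N := by
    refine Split.mem_N_of_normalizes C8.free (Q := (P8.H : Set GK)) (fun _ hg => hg) ?_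
      (fun g hg => ?_) (fun g hg => ?_)
    · intro r hr
      exact not_all_one r fun c => C8.commute_tg_iff.1 (hr _ (Cert.tg_mem_H c))
    · rw [(hH g hg).eq, mul_inv_cancel_right]; exact hg
    · rw [mul_assoc, ← (hH g hg).eq, inv_mul_cancel_left]; exact hg
  have hν : P8.ν z = 1 := Equiv.ext fun r => root_eq fun c =>
    C8.torChar_ν hN (hH _ (Cert.tg_mem_H c)).symm r
  obtain ⟨c, rfl⟩ := Cert.mem_H_iff.1 (Split.mem_H_of hN hν)
  have h1 : ∀ r : Rt, (r : ℕ) ∈ d0L ++ d1L → torChar chevE8 c r = 1 := fun r hr =>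
    C8.commute_tg_iff.1 fun x hx => hz x (Split.mem_U (A := Ψ0)
      ((List.mem_append.1 hr).imp mem_Δ0.2 mem_Δ1.2) hx)
  refine Cert.tg_eq_one_iff.2 fun j => ?_
  rw [← C8.simple_val]
  have h2 : ∀ j < chevE8.rank, j = 0 ∨ j = 5 ∨ chevE8.simple j ∈ d0L ++ d1L := by decide +kernel
  rcases h2 j j.2 with hj | hj | hj
  · refine sq_eq_one h1 j (r1 := ⟨78, by decide⟩) (r2 := ⟨87, by decide⟩) (r3 := ⟨104, by decide⟩)
      (r4 := ⟨228, by decide⟩) (by decide) ?_
    rw [hj]; decide +kernel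
  · refine sq_eq_one h1 j (r1 := ⟨11, by decide⟩) (r2 := ⟨87, by decide⟩) (r3 := ⟨113, by decide⟩)
      (r4 := ⟨237, by decide⟩) (by decide) ?_
    rw [hj]; decide +kernel
  · exact h1 _ (by rwa [C8.simple_val])

end Cfsg.Agent.H52.O84E1
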