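import Mathlib
import Cfsg.Agent.H71.P3Defs

/-!
Orbits of the symplectic group on the pairs of flags `(x ≤ L), (y ≤ M)` with `y ≤ L`.
-/

set_option autoImplicit false

namespace Cfsg.Agent.H52.P3Oc

open Cfsg Module Cfsg.Agent.H27 Cfsg.Agent.H71.P3
open scoped Pointwise

/-- A colouring from a cover by finitely many classes, each inside one orbit. -/
theorem col_of_cover {G A B ι : Type} [Group G] [MulAction G A] [MulAction G B]
    (R : A → B → Prop) (m : ℕ) (i0 : ι) (e : ι → Fin m) (he : Function.Injective e)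
    (T : ι → A → B → Prop) (hc : ∀ a b, R a b → ∃ i, T i a b)
    (ht : ∀ i a b a' b', T i a b → T i a' b' → ∃ g : G, g • a = a' ∧ g • b = b') :
    Col G R m := by
  classical
  refine ⟨fun a b => e (if h : R a b then (hc a b h).choose else i0), ?_⟩
  intro a b a' b' h h' hcol
  have h1 := he hcol
  simp only [dif_pos h, dif_pos h'] at h1
  refine ht _ a b a' b' (hc a b h).choose_spec ?_
  rw [h1]
  exact (hc a' b' h').choose_spec

variable {F V : Type} [Field F] [AddCommGroup V] [Module F V]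

theorem wit2 [Finite V] (S : Sp F V) {f e f' e' : V} (h : LinearIndependent F ![f, e])
    (h' : LinearIndependent F ![f', e']) (h1 : S.B f' e' = S.B f e) :
    ∃ g ∈ S.G, g f = f' ∧ g e = e' := by
  obtain ⟨g, hg, -, hx⟩ := witt_family S.nd S.alt S.G (fun w c => altTv_mem_isomGroup S.alt w c)
    h h' (by
      intro i j
      fin_cases i <;> fin_cases j
      · simp [S.alt.self_eq_zero]
      · simpa using h1
      · simp only [Fin.mk_one, Fin.isValue, Matrix.cons_val_one, Matrix.cons_val_fin_one,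
          Fin.zero_eta, Matrix.cons_val_zero]
        rw [← S.alt.neg_eq, h1, S.alt.neg_eq]
      · simp [S.alt.self_eq_zero])
  exact ⟨g, hg, hx 0, hx 1⟩

theorem wit3 [Finite V] (S : Sp F V) {f e m f' e' m' : V} (h : LinearIndependent F ![f, e, m])
    (h' : LinearIndependent F ![f', e', m']) (h1 : S.B f' e' = S.B f e)
    (h2 : S.B f' m' = S.B f m) (h3 : S.B e' m' = S.B e m) :
    ∃ g ∈ S.G, g f = f' ∧ g e = e' ∧ g m = m' := by
  have k1 : S.B e' f' = S.B e f := by rw [← S.alt.neg_eq, h1, S.alt.neg_eq]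
  have k2 : S.B m' f' = S.B m f := by rw [← S.alt.neg_eq, h2, S.alt.neg_eq]
  have k3 : S.B m' e' = S.B m e := by rw [← S.alt.neg_eq, h3, S.alt.neg_eq]
  obtain ⟨g, hg, -, hx⟩ := witt_family S.nd S.alt S.G (fun w c => altTv_mem_isomGroup S.alt w c)
    h h' (by
      intro i j
      fin_cases i <;> fin_cases j <;> simp [S.alt.self_eq_zero, h1, h2, h3, k1, k2, k3])
  exact ⟨g, hg, hx 0, hx 1, hx 2⟩

/-- A point is spanned by a non-zero vector. -/
theorem pt_span [FiniteDimensional F V] {x : Submodule F V} (h : dm x = 1) :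
    ∃ f : V, f ≠ 0 ∧ x = F ∙ f := by
  have hne : x ≠ ⊥ := by
    rintro rfl
    simp at h
  obtain ⟨f, hf, hf0⟩ := Submodule.exists_mem_ne_zero_of_ne_bot hne
  refine ⟨f, hf0, (Submodule.eq_of_le_of_finrank_eq
    ((Submodule.span_singleton_le_iff_mem f x).2 hf) ?_).symm⟩
  rw [finrank_span_singleton hf0]
  exact h.symm

theorem li2 {f e : V} (hf : f ≠ 0) (he : e ∉ F ∙ f) : LinearIndependent F ![f, e] := by
  rw [LinearIndependent.pair_iff' hf]
  intro a ha
  exact he (Submodule.mem_span_singleton.2 ⟨a, ha⟩)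

theorem li3 {f e m : V} (h : LinearIndependent F ![f, e]) (hm : m ∉ Submodule.span F {f, e}) :
    LinearIndependent F ![f, e, m] := by
  have h1 : (![f, e, m] : Fin 3 → V) = Fin.snoc ![f, e] m := by
    funext i
    fin_cases i <;> rfl
  rw [h1, linearIndependent_finSnoc]
  refine ⟨h, ?_⟩
  rwa [Matrix.range_cons_cons_empty]

/-- A line is spanned by two independent vectors in it. -/
theorem ln_span [FiniteDimensional F V] {L : Submodule F V} (h : dm L = 2) {f e : V} (hf : f ∈ L)
    (he : e ∈ L) (hi : LinearIndependent F ![f, e]) : L = Submodule.span F {f, e} := by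
  refine (Submodule.eq_of_le_of_finrank_eq ?_ ?_).symm
  · rw [Submodule.span_le]
    rintro v (rfl | rfl)
    · exact hf
    · exact he
  · have := finrank_span_eq_card hi
    rw [Matrix.range_cons_cons_empty] at this
    rw [this]
    exact h.symm

theorem exists_not_mem [FiniteDimensional F V] {L : Submodule F V} (h : dm L = 2) {f : V}
    (hf : f ≠ 0) : ∃ e ∈ L, e ∉ F ∙ f := by
  by_contra hc
  push Not at hc
  have := Submodule.finrank_mono (show L ≤ F ∙ f from hc)
  rw [finrank_span_singleton hf] at this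
  have h' : finrank F L = 2 := h
  omega

/-- The six classes. -/
def T (S : Sp F V) (i : Bool × Option Bool) (a b : S.Fl) : Prop :=
  ∃ f e m : V, b.1.1 = F ∙ f ∧ a.1.2 = Submodule.span F {f, e} ∧
    a.1.1 = F ∙ (if i.1 then f else e) ∧ b.1.2 = Submodule.span F {f, m} ∧
    S.B f e = 0 ∧ S.B f m = 0 ∧ LinearIndependent F ![f, e] ∧
    (i.2 = none → m = e) ∧
    ∀ t, i.2 = some t → LinearIndependent F ![f, e, m] ∧ S.B e m = if t then 1 else 0

theorem cover [Finite V] (S : Sp F V) (a b : S.Fl) (h : b.1.1 ≤ a.1.2) : ∃ i, T S i a b := by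
  classical
  obtain ⟨⟨x, L⟩, hx, ⟨hL, iL⟩, hxL⟩ := a
  obtain ⟨⟨y, M⟩, hy, ⟨hM, iM⟩, hyM⟩ := b
  simp only at h hx hL iL hxL hy hM iM hyM
  obtain ⟨f, f0, rfl⟩ := pt_span hy
  have fL : f ∈ L := h (Submodule.mem_span_singleton_self f)
  have fM : f ∈ M := hyM (Submodule.mem_span_singleton_self f)
  obtain ⟨s, e, eL, ef, hs⟩ : ∃ (s : Bool) (e : V), e ∈ L ∧ e ∉ F ∙ f ∧
      x = F ∙ (if s then f else e) := by
    obtain ⟨e, e0, rfl⟩ := pt_span hx
    by_cases hef : e ∈ F ∙ f
    · obtain ⟨e', e'L, e'f⟩ := exists_not_mem hL f0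
      refine ⟨true, e', e'L, e'f, ?_⟩
      show (F ∙ e) = F ∙ f
      refine Submodule.eq_of_le_of_finrank_eq ((Submodule.span_singleton_le_iff_mem _ _).2 hef) ?_
      rw [finrank_span_singleton e0, finrank_span_singleton f0]
    · exact ⟨false, e, hxL (Submodule.mem_span_singleton_self e), hef, rfl⟩
  have hi := li2 f0 ef
  have hLs := ln_span hL fL eL hi
  by_cases hML : M = L
  · refine ⟨(s, none), f, e, e, rfl, hLs, hs, hML.trans hLs, iL _ fL _ eL, iL _ fL _ eL, hi,
      fun _ => rfl, fun t ht => by simp at ht⟩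
  · obtain ⟨m, mM, mf⟩ := exists_not_mem hM f0
    have key : ∀ m' ∈ M, m' ∉ F ∙ f → M = Submodule.span F {f, m'} ∧
        LinearIndependent F ![f, e, m'] := by
      intro m' m'M m'f
      have h1 := ln_span hM fM m'M (li2 f0 m'f)
      refine ⟨h1, li3 hi fun hm => hML ?_⟩
      rw [← hLs] at hm
      exact h1.trans (ln_span hL fL hm (li2 f0 m'f)).symm
    by_cases hB : S.B e m = 0
    · obtain ⟨k1, k2⟩ := key m mM mf
      refine ⟨(s, some false), f, e, m, rfl, hLs, hs, k1, iL _ fL _ eL, iM _ fM _ mM, hi,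
        fun h => by simp at h, fun t ht => ?_⟩
      obtain rfl : false = t := by simpa using ht
      exact ⟨k2, by simpa using hB⟩
    · have m'M : (S.B e m)⁻¹ • m ∈ M := M.smul_mem _ mM
      have m'f : (S.B e m)⁻¹ • m ∉ F ∙ f := fun hh => mf (by
        have := Submodule.smul_mem _ (S.B e m) hh
        rwa [smul_smul, mul_inv_cancel₀ hB, one_smul] at this)
      obtain ⟨k1, k2⟩ := key _ m'M m'f
      refine ⟨(s, some true), f, e, _, rfl, hLs, hs, k1, iL _ fL _ eL, iM _ fM _ m'M, hi,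
        fun h => by simp at h, fun t ht => ?_⟩
      obtain rfl : true = t := by simpa using ht
      refine ⟨k2, ?_⟩
      rw [map_smul, smul_eq_mul, inv_mul_cancel₀ hB]
      simp

theorem trans [Finite V] (S : Sp F V) (i : Bool × Option Bool) (a b a' b' : S.Fl)
    (h : T S i a b) (h' : T S i a' b') : ∃ g : S.G, g • a = a' ∧ g • b = b' := by
  obtain ⟨f, e, m, h1, h2, h3, h4, h5, h6, h7, h8, h9⟩ := h
  obtain ⟨f', e', m', h1', h2', h3', h4', h5', h6', h7', h8', h9'⟩ := h'
  obtain ⟨g, hg, gf, ge, gm⟩ : ∃ g ∈ S.G, g f = f' ∧ g e = e' ∧ g m = m' := by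
    rcases hi : i.2 with _ | t
    · obtain ⟨g, hg, gf, ge⟩ := wit2 S h7 h7' (h5'.trans h5.symm)
      exact ⟨g, hg, gf, ge, by rw [h8 hi, h8' hi, ge]⟩
    · exact wit3 S (h9 t hi).1 (h9' t hi).1 (h5'.trans h5.symm) (h6'.trans h6.symm)
        ((h9' t hi).2.trans (h9 t hi).2.symm)
  refine ⟨⟨g, hg⟩, Subtype.ext (Prod.ext ?_ ?_), Subtype.ext (Prod.ext ?_ ?_)⟩
  · rw [Sp.Fl_smul1, h3, h3', smul_span]
    split_ifs
    · exact congrArg _ (congrArg _ gf)
    · exact congrArg _ (congrArg _ ge)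
  · rw [Sp.Fl_smul2, h2, h2', smul_span_pair]
    simp only [gf, ge]
  · rw [Sp.Fl_smul1, h1, h1', smul_span]
    simp only [gf]
  · rw [Sp.Fl_smul2, h4, h4', smul_span_pair]
    simp only [gf, gm]

theorem oc : OcStmt := by
  intro F V _ _ _ _ _ S
  have hc : Fintype.card (Bool × Option Bool) = 6 := rfl
  exact col_of_cover _ 6 (true, none) (Fintype.equivFinOfCardEq hc)
    (Fintype.equivFinOfCardEq hc).injective (T S) (cover S) (trans S)

end Cfsg.Agent.H52.P3Oc
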