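import Cfsg.Agent.H74.RuDefs
import Cfsg.Agent.H31.HermQ

/-!
The Eichler step for frames of a unitary space.
-/

set_option autoImplicit false

namespace Cfsg.Agent.H52.RuCf0

open Cfsg Module Cfsg.Agent.H31 Cfsg.Agent.H74.Ru

theorem cf0 (ka : KaStmt) : Cf0Stmt := by
  intro F V _ _ _ _ _ S v hv a ha y yy ay hy
  have hs := S.herm.toIsHermSymm
  have k2 := (ka S v hv).2.1
  have hp : HypPair S.B (v a) (v a.rev) :=
    ⟨by rw [hv, if_neg ha], by rw [hv, Fin.rev_rev, if_neg ha.symm], by rw [hv, if_pos rfl]⟩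
  obtain ⟨u, hu, uf⟩ := hs.exists_uniRad_map hp (f' := y) ⟨hp.he, yy, ay⟩
  obtain ⟨w, c, ew, fw, hE⟩ := hs.exists_isEich_of_mem hp hu
  have ey : y = v a.rev + w + c • v a := by rw [← uf, hE.apply_f hp.hef (hs.flip_zero fw)]
  have h1 : ∀ l, l ≠ a.rev → u (v l) = v l - S.B w (v l) • v a := fun l hl =>
    hE.apply_of_perp (by rw [hv, if_neg hl])
  have h2 : ∀ l, l ≠ a.rev → l ≠ a → S.B (v l) y = S.B (v l) w := fun l hl hl' => by
    rw [ey, map_add, map_add, smul_right, hv, hv, if_neg fun e => hl' (Fin.rev_injective e).symm,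
      if_neg fun e => hl (by rw [e, Fin.rev_rev]), mul_zero, zero_add, add_zero]
  have h3 : ∀ l, l ≠ a.rev → S.B (v l) y = 0 → u (v l) = v l := fun l hl h => by
    by_cases hl' : l = a
    · rw [hl', hu.2.1]
    · rw [h1 l hl, hs.flip_zero ((h2 l hl hl').symm.trans h), zero_smul, sub_zero]
  refine ⟨u, hu.1, fun i => ?_, hu.2.1, uf, h3⟩
  rw [Pi.one_apply, Units.val_one, one_smul]
  by_cases hi : i = a.rev
  · rw [hi, uf, k2]
    intro j hj
    rw [map_sub, hv, Fin.rev_rev]
    by_cases e : a.rev = j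
    · rw [if_pos e, ← e, Fin.rev_rev, ay, sub_self]
    · rw [if_neg e, sub_zero]
      exact (k2 _ y).1 hy j (by have := Fin.val_ne_of_ne e; omega)
  by_cases hi' : i = a
  · rw [hi', hu.2.1, sub_self]
    exact zero_mem _
  by_cases h0 : S.B (v i) y = 0
  · rw [h3 i hi h0, sub_self]
    exact zero_mem _
  · have h4 : ¬ a.rev.val + 1 ≤ i.rev.val := fun h => h0 (by
      have := (k2 _ y).1 hy i.rev h
      rwa [Fin.rev_rev] at this)
    have h5 : a.val < i.val := by
      have := Fin.val_ne_of_ne hi'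
      have := a.2
      have := i.2
      simp only [Fin.val_rev] at h4
      omega
    rw [h1 i hi, sub_sub_cancel_left]
    exact neg_mem (Submodule.smul_mem _ _ (Submodule.subset_span ⟨a, h5, rfl⟩))

end Cfsg.Agent.H52.RuCf0
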