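import Cfsg.Agent.H4.SvDefs

/-! Project SV, piece LIN: a dimension count. -/

set_option autoImplicit false

namespace Cfsg.Agent.H52.SvLin

open Cfsg.Agent.H4.SV Cfsg.Agent.H50.E83 Module

theorem two_le {A B F : Submodule K V} (hA : A ≤ F) (hB : B ≤ F) :
    finrank K A + finrank K B ≤ finrank K (A ⊓ B : Submodule K V) + finrank K F := by
  have h1 := Submodule.finrank_sup_add_finrank_inf_eq A B
  have h2 := Submodule.finrank_mono (sup_le hA hB)
  omega

theorem sigma_inv (i : Fin 3) (g : T9) : co i g = 0 → co i (σ i g) = 0 ∧ σ i (σ i g) = g := by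
  have : ∀ i : Fin 3, ∀ n : Fin 512, co i (ofN n) = 0 →
      co i (σ i (ofN n)) = 0 ∧ σ i (σ i (ofN n)) = ofN n := by decide +kernel
  exact all_T9 (P := fun g => co i g = 0 → co i (σ i g) = 0 ∧ σ i (σ i g) = g) (this i) g

theorem mem_E0 {φ : T9 →* GK} {v : V} : v ∈ E φ 0 ↔ ∀ g, act (φ g) v = v := by
  have : ∀ g, chi 0 g = 1 := fun g => by
    change sg (lin 0 g) = 1
    simp [lin, bt, sg]
  simp [E, mem_eig, this]

theorem lin_ (l1 : Lin1Stmt) : LinStmt := by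
  intro φ s hs
  let U : Fin 3 → Submodule K V := fun i => (E φ 0).map (act (s i))
  have hU : ∀ i, ∀ v ∈ U i, ∀ g, act (s i * φ g * (s i)⁻¹) v = v := by
    rintro i _ ⟨v, hv, rfl⟩ g
    rw [← Module.End.mul_apply, ← map_mul, inv_mul_cancel_right, map_mul, Module.End.mul_apply,
      mem_E0.1 hv]
  have dU : ∀ i, finrank K (U i) = finrank K (E φ 0) := fun i =>
    (Submodule.equivMapOfInjective _ ((Module.End.isUnit_iff _).1
      ((Group.isUnit (s i)).map act)).1 _).finrank_eq.symm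
  have h1 : ∀ i : Fin 3, finrank K (E φ 0) ≤ finrank K (E φ 0 ⊓ U i : Submodule K V) +
      finrank K (E φ (2 ^ (i : ℕ))) := fun i => by
    have := two_le (A := E φ 0) (B := U i) (F := Fix (φ '' {g | co i g = 0}))
      (fun v hv => mem_Fix.2 (by rintro _ ⟨g, -, rfl⟩; exact mem_E0.1 hv g))
      (fun v hv => mem_Fix.2 (by
        rintro _ ⟨g, hg, rfl⟩
        rw [← (sigma_inv i g hg).2, ← hs i _ (sigma_inv i g hg).1]
        exact hU i v hv _))
    have := l1 φ i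
    have := dU i
    omega
  have h2 := two_le (A := E φ 0 ⊓ U 0) (B := E φ 0 ⊓ U 1) (F := E φ 0) inf_le_left inf_le_left
  have h3 := two_le (A := (E φ 0 ⊓ U 0) ⊓ (E φ 0 ⊓ U 1)) (B := E φ 0 ⊓ U 2) (F := E φ 0)
    (inf_le_left.trans inf_le_left) inf_le_left
  have h4 := Submodule.finrank_mono (show (E φ 0 ⊓ U 0) ⊓ (E φ 0 ⊓ U 1) ⊓ (E φ 0 ⊓ U 2) ≤
      Fix (Set.range φ ∪ {x | ∃ i g, x = s i * φ g * (s i)⁻¹}) from fun v hv => mem_Fix.2 (by
    rintro _ (⟨g, rfl⟩ | ⟨i, g, rfl⟩)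
    · exact mem_E0.1 hv.2.1 g
    · refine hU i v ?_ g
      fin_cases i
      exacts [hv.1.1.2, hv.1.2.2, hv.2.2]))
  have a0 : _ ≤ _ + finrank K (E φ 1) := h1 0
  have a1 : _ ≤ _ + finrank K (E φ 2) := h1 1
  have a2 : _ ≤ _ + finrank K (E φ 4) := h1 2
  omega

end Cfsg.Agent.H52.SvLin
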