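import Mathlib
import Cfsg.Agent.H58.SWDefs
import Cfsg.Agent.S0277

/-! Project SW, piece BLKORD: `BlkOrdStmt` and `GordStmt`. -/

set_option autoImplicit false
set_option linter.unusedVariables false
set_option linter.unusedSectionVars false
open Matrix Cfsg
open scoped commutatorElement

namespace Cfsg.Agent.H52.SwBlkOrd

open Cfsg.Agent.H58.SW

section
variable {F : Type} [Field F]

/-- multiplicativity of a diagonal block -/
theorem blk_mul {n m : ℕ} {T : Type} [DecidableEq T] (β : Fin n → T) (e : T)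
    (τ : Fin m ≃ {i : Fin n // β i = e}) (y z : Matrix (Fin n) (Fin n) F)
    (h : ∀ i k j, β i = e → β j = e → β k ≠ e → y i k * z k j = 0) :
    (y * z).submatrix (fun i => (τ i).1) (fun i => (τ i).1) =
      y.submatrix (fun i => (τ i).1) (fun i => (τ i).1) *
        z.submatrix (fun i => (τ i).1) (fun i => (τ i).1) := by
  ext i j
  simp only [Matrix.submatrix_apply, Matrix.mul_apply]
  rw [Equiv.sum_comp τ (fun k => y (τ i).1 k.1 * z k.1 (τ j).1)]
  rw [← Finset.sum_subtype (Finset.univ.filter (fun k => β k = e)) (by simp)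
    (fun k => y (τ i).1 k * z k (τ j).1)]
  symm
  apply Finset.sum_subset (Finset.filter_subset _ _)
  intro k _ hk
  exact h _ _ _ (τ i).2 (τ j).2 (by simpa using hk)

theorem blk_one {n m : ℕ} {T : Type} (β : Fin n → T) (e : T)
    (τ : Fin m ≃ {i : Fin n // β i = e}) :
    (1 : Matrix (Fin n) (Fin n) F).submatrix (fun i => (τ i).1) (fun i => (τ i).1) = 1 :=
  Matrix.submatrix_one _ (fun a b hab => τ.injective (Subtype.ext hab))

theorem mem_GU_iff (m q : ℕ) (hq : q ≠ 0) (hadd : ∀ a b : F, (a + b) ^ q = a ^ q + b ^ q)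
    (x : GL (Fin m) F) : x ∈ GU m F q ↔
      ((x : Matrix (Fin m) (Fin m) F).map (fun a => a ^ q))ᵀ * (x : Matrix (Fin m) (Fin m) F) = 1 := by
  let φ : F →+* F :=
    { toFun := fun a => a ^ q
      map_one' := one_pow _
      map_mul' := fun a b => mul_pow a b q
      map_zero' := zero_pow hq
      map_add' := hadd }
  have hφ : ∀ a : F, a ^ q = φ a := fun a => rfl
  have key : ∀ (y : Matrix (Fin m) (Fin m) F) (u v : Fin m → F),
      hermForm m F q (y *ᵥ u) (y *ᵥ v) =
        (fun i => v i ^ q) ⬝ᵥ (((y.map (fun a => a ^ q))ᵀ * y) *ᵥ u) := by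
    intro y u v
    rw [← Matrix.mulVec_mulVec, Matrix.dotProduct_mulVec, Matrix.vecMul_transpose]
    unfold hermForm
    simp only [dotProduct]
    refine Finset.sum_congr rfl (fun i _ => ?_)
    rw [mul_comm]
    congr 1
    simp only [Matrix.mulVec, dotProduct, Matrix.map_apply, hφ, map_sum, map_mul]
  constructor
  · intro hx
    have hx' : ∀ u v : Fin m → F, hermForm m F q ((x : Matrix (Fin m) (Fin m) F) *ᵥ u)
        ((x : Matrix (Fin m) (Fin m) F) *ᵥ v) = hermForm m F q u v := hx
    ext k j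
    have h1 := hx' (Pi.single j 1) (Pi.single k 1)
    rw [key] at h1
    have h2 : (fun i => (Pi.single k (1 : F) : Fin m → F) i ^ q) = Pi.single k 1 := by
      funext i
      by_cases hi : i = k
      · subst hi; simp
      · simp [Pi.single_eq_of_ne hi, hq]
    rw [h2, single_dotProduct, one_mul, Matrix.mulVec_single_one] at h1
    have h3 : hermForm m F q (Pi.single j 1) (Pi.single k 1) =
        (1 : Matrix (Fin m) (Fin m) F) k j := by
      have := key 1 (Pi.single j 1) (Pi.single k 1)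
      rw [Matrix.one_mulVec, Matrix.one_mulVec] at this
      rw [this, h2, single_dotProduct, one_mul, Matrix.mulVec_single_one, Matrix.mul_one]
      by_cases hkj : k = j
      · subst hkj; simp
      · simp [Matrix.one_apply_ne hkj, Matrix.one_apply_ne (Ne.symm hkj), hq]
    rw [← h3, ← h1]
    rfl
  · intro hx
    show ∀ u v : Fin m → F, hermForm m F q ((x : Matrix (Fin m) (Fin m) F) *ᵥ u)
        ((x : Matrix (Fin m) (Fin m) F) *ᵥ v) = hermForm m F q u v
    intro u v
    rw [key, hx, Matrix.one_mulVec]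
    unfold hermForm
    simp only [dotProduct]
    exact Finset.sum_congr rfl (fun i _ => mul_comm _ _)

end

section
variable {F : Type} [Field F] [Fintype F] [DecidableEq F] {n : ℕ}

theorem gord_lin (c : Cl F n) (hu : c.u = false) (m : ℕ) :
    c.gord m = ∏ i : Fin m, (c.q ^ m - c.q ^ (i : ℕ)) := by
  have hq : Fintype.card F = c.q := by have := c.hq; simpa [hu] using this
  unfold Cl.gord
  rw [← hq, ← Matrix.card_GL_field]
  exact Nat.card_congr (Equiv.subtypeUnivEquiv (fun x h => by simp [hu] at h))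

theorem gord_uni (c : Cl F n) (ka : KA c) (hu : c.u = true) (m : ℕ) :
    c.gord m = c.q ^ (m * (m - 1) / 2) *
      ∏ i ∈ Finset.range m, (if Even i then c.q ^ (i + 1) + 1 else c.q ^ (i + 1) - 1) := by
  have hq : Fintype.card F = c.q ^ 2 := by have := c.hq; simpa [hu] using this
  have h2 := ka.two_le
  rw [← Cfsg.Agent.S0277.result hq m]
  unfold Cl.gord
  refine Nat.card_congr (Equiv.subtypeEquivRight (fun x => ?_))
  rw [mem_GU_iff m c.q (by omega) (ka.fr_add hu)]
  simp [hu]

theorem cj_one' (x : Mt n F) : cj (1 : Gl n F) x = x := by simp [cj]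

theorem cj_mul' (s t : Gl n F) (x : Mt n F) : cj (s * t) x = cj s (cj t x) := by
  simp [cj, Matrix.mul_assoc]

theorem part1 (c : Cl F n) (ka : KA c) (hFr : FrameStmt) (E : Finset (Mt n F)) (hE : Fam E)
    (hS : c.SF E) (X : Subgroup (Gl n F)) (hX : X ≤ c.St)
    (h : ∀ x ∈ X, ∀ e ∈ E, Commute (x : Mt n F) e) : Nat.card X ≤ ∏ e ∈ E, c.gord e.rank := by
  classical
  obtain ⟨a, ha, β, hβ, hfr⟩ := hFr F n c E hE hS
  have hτ : ∀ e : E, Nonempty (Fin (e : Mt n F).rank ≃ {i : Fin n // β i = e}) := by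
    intro e
    apply Fintype.card_eq.1
    rw [Fintype.card_fin, Fintype.card_subtype, (hfr e e.2).2]
  let τ : ∀ e : E, Fin (e : Mt n F).rank ≃ {i : Fin n // β i = e} := fun e => (hτ e).some
  let y : X → Gl n F := fun x => a⁻¹ * x * a
  have hySt : ∀ x, y x ∈ c.St := fun x =>
    c.St.mul_mem (c.St.mul_mem (c.St.inv_mem ha) (hX x.2)) ha
  have hyd : ∀ x i j, β i ≠ β j → (y x : Mt n F) i j = 0 := by
    intro x i j hij
    have h1 := (h x x.2 (β i) (hβ i)).eq
    have h2 := (hfr (β i) (hβ i)).1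
    have h3 : (y x : Mt n F) * dg β (β i) = dg β (β i) * (y x : Mt n F) := by
      have h4 : dg β (β i) = ((a⁻¹ : Gl n F) : Mt n F) * β i * (a : Mt n F) := by
        conv_rhs => rw [h2]
        simp [cj, Matrix.mul_assoc]
      have h5 : (y x : Mt n F) = ((a⁻¹ : Gl n F) : Mt n F) * (x : Gl n F) * (a : Mt n F) := by
        simp [y]
      rw [h4, h5]
      have h6 : (a : Mt n F) * ((a⁻¹ : Gl n F) : Mt n F) = 1 := by
        rw [← Units.val_mul, mul_inv_cancel, Units.val_one]
      calc ((a⁻¹ : Gl n F) : Mt n F) * (x : Gl n F) * (a : Mt n F) *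
            (((a⁻¹ : Gl n F) : Mt n F) * β i * (a : Mt n F))
          = ((a⁻¹ : Gl n F) : Mt n F) * ((x : Gl n F) * ((a : Mt n F) *
            ((a⁻¹ : Gl n F) : Mt n F)) * β i) * (a : Mt n F) := by simp only [Matrix.mul_assoc]
        _ = ((a⁻¹ : Gl n F) : Mt n F) * (β i * ((a : Mt n F) *
            ((a⁻¹ : Gl n F) : Mt n F)) * (x : Gl n F)) * (a : Mt n F) := by
              rw [h6, Matrix.mul_one, Matrix.mul_one, h1]
        _ = _ := by simp only [Matrix.mul_assoc]
    have h7 := congrFun (congrFun h3 i) j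
    simp only [dg, Matrix.mul_diagonal, Matrix.diagonal_mul] at h7
    simpa [Ne.symm hij] using h7.symm
  let b : ∀ e : E, Mt n F → Matrix (Fin (e : Mt n F).rank) (Fin (e : Mt n F).rank) F :=
    fun e z => z.submatrix (fun i => (τ e i).1) (fun i => (τ e i).1)
  have hb1 : ∀ (e : E) (x : X), b e (y x) * b e (((y x)⁻¹ : Gl n F) : Mt n F) = 1 := by
    intro e x
    rw [← blk_mul β (e : Mt n F) (τ e), ← Units.val_mul, mul_inv_cancel, Units.val_one]
    · exact blk_one β _ _
    · intro i k j hi hj hk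
      rw [hyd x i k (by rw [hi]; exact Ne.symm hk), zero_mul]
  have hb2 : ∀ (e : E) (x : X), c.u = true →
      ((b e (y x)).map (fun a => a ^ c.q))ᵀ * b e (y x) = 1 := by
    intro e x hu
    have h1 : ((b e (y x)).map (fun a => a ^ c.q))ᵀ = b e (c.st (y x)) := rfl
    rw [h1, ← blk_mul β (e : Mt n F) (τ e), (ka.mem_St _).1 (hySt x) hu]
    · exact blk_one β _ _
    · intro i k j hi hj hk
      rw [hyd x k j (by rw [hj]; exact hk), mul_zero]
  let f : X → ∀ e : E, {x : GL (Fin (e : Mt n F).rank) F // c.u = true →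
      ((x : Matrix (Fin (e : Mt n F).rank) (Fin (e : Mt n F).rank) F).map (fun a => a ^ c.q))ᵀ *
        (x : Matrix (Fin (e : Mt n F).rank) (Fin (e : Mt n F).rank) F) = 1} :=
    fun x e => ⟨⟨b e (y x), b e (((y x)⁻¹ : Gl n F) : Mt n F), hb1 e x,
      mul_eq_one_comm.1 (hb1 e x)⟩, hb2 e x⟩
  have hf : Function.Injective f := by
    intro x x' hxx
    have h1 : y x = y x' := by
      ext i j
      by_cases hij : β i = β j
      · have h2 : b ⟨β i, hβ i⟩ (y x) = b ⟨β i, hβ i⟩ (y x') :=
          congrArg (fun g => (g ⟨β i, hβ i⟩).1.val) hxx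
        have h3 := congrFun (congrFun h2 ((τ ⟨β i, hβ i⟩).symm ⟨i, rfl⟩))
          ((τ ⟨β i, hβ i⟩).symm ⟨j, hij.symm⟩)
        simpa [b] using h3
      · rw [hyd x i j hij, hyd x' i j hij]
    apply Subtype.ext
    simpa [y] using h1
  have h1 := Nat.card_le_card_of_injective f hf
  rw [Nat.card_pi] at h1
  rw [← Finset.prod_coe_sort E]
  exact h1

theorem part2 (c : Cl F n) (ka : KA c) (hFr : FrameStmt) (E : Finset (Mt n F)) (hE : Fam E)
    (hS : c.SF E) (X : Subgroup (Gl n F)) (hX : X ≤ c.St)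
    (h : ∀ x ∈ X, ∀ e ∈ E, cj x e ∈ E) :
    Nat.card X ≤ E.card.factorial * ∏ e ∈ E, c.gord e.rank := by
  classical
  letI act : MulAction X E :=
    { smul := fun x e => ⟨cj x e, h x x.2 e e.2⟩
      one_smul := fun e => Subtype.ext (cj_one' _)
      mul_smul := fun x x' e => Subtype.ext (cj_mul' _ _ _) }
  let φ : X →* Equiv.Perm E := MulAction.toPermHom X E
  have h1 : Nat.card (φ.ker.map X.subtype) ≤ ∏ e ∈ E, c.gord e.rank := by
    refine part1 c ka hFr E hE hS _ ((Subgroup.map_subtype_le _).trans hX) ?_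
    rintro _ ⟨x, hx, rfl⟩ e he
    have h2 : cj x e = e := congrArg (fun g : Equiv.Perm E => (g ⟨e, he⟩ : Mt n F)) hx
    have h3 : (((x : Gl n F)⁻¹ : Gl n F) : Mt n F) * ((x : Gl n F) : Mt n F) = 1 := by
      rw [← Units.val_mul, inv_mul_cancel, Units.val_one]
    show ((x : Gl n F) : Mt n F) * e = e * ((x : Gl n F) : Mt n F)
    conv_rhs => rw [← h2]
    rw [cj, Matrix.mul_assoc, h3, Matrix.mul_one]
  rw [Subgroup.card_map_of_injective X.subtype_injective] at h1
  have h2 : φ.ker.index ≤ E.card.factorial := by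
    rw [Subgroup.index_ker]
    refine (Subgroup.card_le_card_group _).trans ?_
    rw [Nat.card_eq_fintype_card, Fintype.card_perm, Fintype.card_coe]
  rw [← φ.ker.card_mul_index, mul_comm]
  exact Nat.mul_le_mul h2 h1

end

theorem blkOrd (hKA : KAStmt) (hFr : FrameStmt) : BlkOrdStmt := by
  intro F _ _ _ n c E hE hS X hX
  exact ⟨part1 c (hKA F n c) hFr E hE hS X hX, part2 c (hKA F n c) hFr E hE hS X hX⟩

theorem gord (hKA : KAStmt) : GordStmt := by
  intro F _ _ _ n c
  have ka := hKA F n c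
  refine ⟨?_, fun hu => ?_, fun hu => ?_, fun hu hq => ?_⟩
  · cases hu : c.u
    · rw [gord_lin c hu]; simp [Cl.zc, hu]
    · rw [gord_uni c ka hu]; simp [Cl.zc, hu]
  · rw [gord_lin c hu]; simp [Fin.prod_univ_two]
  · rw [gord_uni c ka hu]; simp [Finset.prod_range_succ, mul_assoc]
  · rw [gord_uni c ka hu, hq]; decide

end Cfsg.Agent.H52.SwBlkOrd
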