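import Mathlib
import Cfsg.Agent.H58.SWDefs

/-! Project SW, piece DMU: `DmUStmt`. -/

set_option autoImplicit false
set_option linter.unusedVariables false
set_option linter.unusedSectionVars false
open Matrix Cfsg
open scoped commutatorElement

namespace Cfsg.Agent.H52.SwDmU

open Cfsg.Agent.H58.SW

section
variable {F : Type} [Field F] [Fintype F] [DecidableEq F] {n : ℕ}

theorem cj_of_comm (s : Gl n F) (x : Mt n F) (h : Commute (s : Mt n F) x) : cj s x = x := by
  rw [cj, h.eq, Matrix.mul_assoc, ← Units.val_mul, mul_inv_cancel, Units.val_one, Matrix.mul_one]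

theorem fam_comm {E : Finset (Mt n F)} (hE : Fam E) {e f : Mt n F} (he : e ∈ E) (hf : f ∈ E) :
    Commute e f := by
  by_cases h : e = f
  · subst h; exact Commute.refl _
  · show e * f = f * e
    rw [hE.orth e he f hf h, hE.orth f hf e he (Ne.symm h)]

theorem det_blk (hI : IdetStmt) {E : Finset (Mt n F)} (hE : Fam E) {e : Mt n F} (he : e ∈ E)
    (l : F) : (1 + (l - 1) • e).det = l ^ e.rank := by
  have h1 := hI F n E (fun f => if f = e then l else 1) hE
  have h2 : ∑ f ∈ E, (if f = e then l else 1) • f = 1 + (l - 1) • e := by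
    have h3 : ∀ f ∈ E, (if f = e then l else 1) • f = f + (if f = e then (l - 1) • f else 0) := by
      intro f _
      split_ifs
      · rw [sub_smul, one_smul, add_sub_cancel]
      · rw [one_smul, add_zero]
    rw [Finset.sum_congr rfl h3, Finset.sum_add_distrib, hE.sum, Finset.sum_ite_eq' E e, if_pos he]
  have h4 : ∏ f ∈ E, (if f = e then l else 1) ^ f.rank = l ^ e.rank := by
    have h5 : ∀ f ∈ E, (if f = e then l else 1) ^ f.rank = if f = e then l ^ f.rank else 1 := by
      intro f _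
      split_ifs
      · rfl
      · exact one_pow _
    rw [Finset.prod_congr rfl h5, Finset.prod_ite_eq' E e, if_pos he]
  rw [← h2, h1, h4]

theorem idem_mul (ε : Mt n F) (h : ε * ε = ε) (a b : F) :
    (1 + a • ε) * (1 + b • ε) = 1 + (a + b + a * b) • ε := by
  simp only [Matrix.add_mul, Matrix.mul_add, Matrix.one_mul, Matrix.mul_one, Matrix.smul_mul,
    Matrix.mul_smul, h]
  module

theorem sq_one (c : Cl F n) (ka : KA c) (hu : c.u = true) (σ : F ≃+* F)
    (hfix : ∀ a : F, a ^ c.q = a → σ a = a) : σ ^ 2 = 1 := by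
  have h1 : ∀ a : F, σ a = a ∨ σ a = a ^ c.q := by
    intro a
    have h2 : σ (a + a ^ c.q) = a + a ^ c.q :=
      hfix _ (by rw [ka.fr_add hu, ka.fr_fr hu, add_comm])
    have h3 : σ (a * a ^ c.q) = a * a ^ c.q :=
      hfix _ (by rw [mul_pow, ka.fr_fr hu, mul_comm])
    rw [map_add] at h2
    rw [map_mul] at h3
    have h4 : (σ a - a) * (σ a - a ^ c.q) = 0 := by
      linear_combination (-σ a) * h2.symm + h3.symm
    rcases mul_eq_zero.1 h4 with h | h
    · exact Or.inl (sub_eq_zero.1 h)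
    · exact Or.inr (sub_eq_zero.1 h)
  ext a
  show σ (σ a) = a
  rcases h1 a with h | h
  · rw [h, h]
  · rw [h, map_pow, h, ka.fr_fr hu]

end

theorem dmU (hKA : KAStmt) (hKT : KTStmt) (hKW : KWStmt) (hI : IdetStmt) (hD : DelKStmt)
    (hSt : StabStmt) (hN : BlkNUStmt) : DmUStmt := by
  intro F _ _ _ n c r H Q hL hrp hu δ E m hδ hB hm h2m
  have ka := hKA F n c
  have kt := hKT F n c
  have kw := hKW F n c
  obtain ⟨t, ht⟩ := hL.std δ hδ.dH
  obtain ⟨-, hσr, hσ1, -, hun, hσq⟩ := hD F n c r H δ t hL.prime hδ ht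
  have hneg : t.neg = false := by
    cases h : t.neg
    · rfl
    · have := (ht.2.1 h).1
      rw [hu] at this
      exact absurd this (by simp)
  have hδap : ∀ x : Gl n F, ((δ x : Gl n F) : Mt n F) = t.ap (x : Mt n F) := by
    intro x
    rw [ht.2.2 x, hneg]
    simp
  have hE := hB.fam
  obtain ⟨e0, he0⟩ : E.Nonempty := Finset.card_pos.1 (by have := hB.two; omega)
  have hq2 := ka.two_le
  have hcase := hN F n c r H Q hL hrp hu E hB e0 he0 (by rw [hm e0 he0]; exact h2m)
  rw [hm e0 he0] at hcase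
  have hq : c.q = 2 ∨ c.q = 3 := by omega
  have hr : r = 2 := by
    have h1 : t.σ ^ 2 = 1 := by
      refine sq_one c ka hu t.σ (fun a ha => ?_)
      rcases hq with h | h
      · rw [h] at ha
        have h2 : a * (a - 1) = 0 := by linear_combination ha
        rcases mul_eq_zero.1 h2 with h3 | h3
        · rw [h3, map_zero]
        · rw [sub_eq_zero.1 h3, map_one]
      · rw [h] at ha
        have h2 : a * ((a - 1) * (a + 1)) = 0 := by linear_combination ha
        rcases mul_eq_zero.1 h2 with h3 | h3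
        · rw [h3, map_zero]
        · rcases mul_eq_zero.1 h3 with h4 | h4
          · rw [sub_eq_zero.1 h4, map_one]
          · rw [eq_neg_of_add_eq_zero_left h4, map_neg, map_one]
    haveI : Fact r.Prime := ⟨hL.prime⟩
    rw [← orderOf_eq_prime hσr (hσ1 hneg), orderOf_eq_prime h1 (hσ1 hneg)]
  obtain ⟨f, hf, hqp⟩ := ka.qp
  have hpq : c.p ∣ c.q := by rw [hqp]; exact dvd_pow_self _ hf.ne'
  have hq3 : c.q = 3 := by
    rcases hq with h | h
    · rw [h] at hpq
      exact absurd (hr.trans ((Nat.prime_dvd_prime_iff_eq c.hp Nat.prime_two).1 hpq).symm) hrp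
    · exact h
  have hm2 : m = 2 := by omega
  have hp3 : c.p = 3 := by
    rw [hq3] at hpq
    exact (Nat.prime_dvd_prime_iff_eq c.hp Nat.prime_three).1 hpq
  have h3 : (3 : F) = 0 := by
    haveI := c.chr
    have := CharP.cast_eq_zero F c.p
    rw [hp3] at this
    exact_mod_cast this
  have hsum : n = E.card * 2 := by
    have h0 := kw.rksum E hE
    rw [Finset.sum_congr rfl hm, Finset.sum_const, smul_eq_mul, hm2] at h0
    exact h0.symm
  suffices hc : E.card ≤ 2 by
    have := hB.two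
    exact ⟨by omega, hm2, hq3⟩
  by_contra hc
  obtain ⟨e1, e2, e3, h1, h2, h3', h12, h13, h23⟩ := Finset.two_lt_card_iff.1 (not_le.1 hc)
  have hap : ∀ e ∈ E, t.ap e = e := by
    intro e he
    obtain ⟨g, hgS, hg1, hgu, -, hl, hr'⟩ := kw.btv e (fun _ => hB.sf hu e he) (hE.idem e he)
      (by rw [hm e he]; exact h2m)
    have hgH : g ∈ c.hat H := by
      refine hSt F n c r H Q hL E hB g hgS (fun e' he' => ?_)
      rw [cj_of_comm]
      · exact he'
      · have h4 : Commute ((g : Mt n F) - 1) e' := by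
          show ((g : Mt n F) - 1) * e' = e' * ((g : Mt n F) - 1)
          by_cases h : e' = e
          · rw [h, hl, hr']
          · rw [← hr', Matrix.mul_assoc, hE.orth e he e' he' (Ne.symm h), hr', ← hl,
              ← Matrix.mul_assoc, hE.orth e' he' e he h, Matrix.mul_zero, Matrix.zero_mul]
        have h5 := h4.add_left (Commute.one_left e')
        rwa [sub_add_cancel] at h5
    have h6 : t.ap ((g : Mt n F) - 1) = (g : Mt n F) - 1 := by
      rw [kt.sub, kt.one, ← hδap, hun g hgH hgu]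
    by_contra hne
    have h7 : t.ap e ∈ E := hB.inv δ hδ.dH t ht e he
    have h8 : t.ap e * ((g : Mt n F) - 1) = (g : Mt n F) - 1 := by
      rw [← h6, ← kt.mul t hneg, hl]
    rw [← hl, ← Matrix.mul_assoc, hE.orth _ h7 e he hne, Matrix.zero_mul, hl] at h8
    exact hg1 (Units.ext (sub_eq_zero.1 h8.symm))
  obtain ⟨b, hb⟩ := ka.nsurj hu (-1) (by rw [hq3]; ring) (by simp)
  rw [hq3] at hb
  obtain ⟨l, hl⟩ : ∃ l : F, l ^ 2 = -1 := ⟨b ^ 2, by rw [← hb]; ring⟩
  have hY : (1 + (l - 1) • e1) * (1 + (l - 1) • e2) = 1 + (l - 1) • (e1 + e2) := by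
    simp only [Matrix.add_mul, Matrix.mul_add, Matrix.one_mul, Matrix.mul_one, Matrix.smul_mul,
      Matrix.mul_smul, hE.orth e1 h1 e2 h2 h12, smul_zero, add_zero, smul_add]
    abel
  have hdet : (1 + (l - 1) • (e1 + e2)).det = 1 := by
    rw [← hY, Matrix.det_mul, det_blk hI hE h1, det_blk hI hE h2, hm e1 h1, hm e2 h2, hm2, hl]
    ring
  have hεε : (e1 + e2) * (e1 + e2) = e1 + e2 := by
    rw [Matrix.add_mul, Matrix.mul_add, Matrix.mul_add, hE.idem e1 h1, hE.idem e2 h2,
      hE.orth e1 h1 e2 h2 h12, hE.orth e2 h2 e1 h1 (Ne.symm h12), add_zero, zero_add]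
  have hlq : (l - 1) ^ c.q = -l - 1 := by
    rw [hq3]
    linear_combination (l - 3) * hl + (1 + l) * h3
  let y : Gl n F := Matrix.GeneralLinearGroup.mkOfDetNeZero (1 + (l - 1) • (e1 + e2))
    (by rw [hdet]; exact one_ne_zero)
  have hy : (y : Mt n F) = 1 + (l - 1) • (e1 + e2) := rfl
  have hyS : y ∈ c.S := by
    rw [ka.mem_S, ka.mem_St, hy]
    refine ⟨fun _ => ?_, hdet⟩
    rw [ka.st_add hu, ka.st_one, ka.st_smul, ka.st_add hu, hB.sf hu e1 h1, hB.sf hu e2 h2, hlq]
    rw [idem_mul _ hεε, show -l - 1 + (l - 1) + (-l - 1) * (l - 1) = 0 by linear_combination -hl,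
      zero_smul, add_zero]
  have hyH : y ∈ c.hat H := by
    refine hSt F n c r H Q hL E hB y hyS (fun e' he' => ?_)
    rw [cj_of_comm]
    · exact he'
    · rw [hy]
      exact (Commute.one_left e').add_left
        (((fam_comm hE h1 he').add_left (fam_comm hE h2 he')).smul_left _)
  obtain ⟨a, -, ha⟩ := (ka.mem_Z _).1 (hδ.cen y hyH)
  have h9 : 1 + (-l - 1) • (e1 + e2) = a • (1 + (l - 1) • (e1 + e2)) := by
    have h10 : δ y = δ y * y⁻¹ * y := by group
    have h11 := hδap y
    rw [h10, Units.val_mul, ha, hy, kt.add, kt.one, kt.smul, kt.add, hap e1 h1, hap e2 h2,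
      hσq hu hr, hlq, Matrix.smul_mul, Matrix.one_mul] at h11
    exact h11.symm
  have h31 : e3 * (e1 + e2) = 0 := by
    rw [Matrix.mul_add, hE.orth e3 h3' e1 h1 (Ne.symm h13), hE.orth e3 h3' e2 h2 (Ne.symm h23),
      add_zero]
  have h11 : e1 * (e1 + e2) = e1 := by
    rw [Matrix.mul_add, hE.idem e1 h1, hE.orth e1 h1 e2 h2 h12, add_zero]
  have ha1 : a = 1 := by
    have h12' := congrArg (fun x => e3 * x) h9
    simp only [Matrix.mul_add _ _ (_ • _), Matrix.mul_smul, Matrix.mul_one, h31, smul_zero,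
      add_zero] at h12'
    have h13' : (a - 1) • e3 = 0 := by rw [sub_smul, ← h12', one_smul, sub_self]
    exact sub_eq_zero.1 ((smul_eq_zero.1 h13').resolve_right (hE.ne0 e3 h3'))
  rw [ha1, one_smul, add_right_inj] at h9
  have h14 := congrArg (fun x => e1 * x) h9
  simp only [Matrix.mul_smul, h11] at h14
  have h15 : ((-l - 1) - (l - 1)) • e1 = 0 := by rw [sub_smul, h14, sub_self]
  have h16 := (smul_eq_zero.1 h15).resolve_right (hE.ne0 e1 h1)
  have h17 : (1 : F) = 0 := by linear_combination (2 * l) * h16 + 4 * hl - h3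
  exact one_ne_zero h17

end Cfsg.Agent.H52.SwDmU
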