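import Cfsg.Agent.H53.UwDefs

/-! Project UW, piece FO: a Singer cycle in general position. -/

set_option autoImplicit false
set_option linter.unusedSectionVars false

namespace Cfsg.Agent.H52.UwFo

open Module Polynomial Cfsg.Agent.H31 Cfsg.Agent.H53.Uw

universe u

theorem exists_ext (E : Type u) [Field E] [Fintype E] (m : ℕ) (hm : m ≠ 0) :
    ∃ (K : Type u) (_ : Field K) (_ : Algebra E K) (_ : Finite K), finrank E K = m := by
  obtain ⟨p, hp⟩ := CharP.exists E
  have := Fact.mk (CharP.char_is_prime E p)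
  have := NeZero.mk hm
  have : Finite (FiniteField.Extension E p m) := Module.finite_of_finite E
  refine ⟨ULift.{u} (FiniteField.Extension E p m), inferInstance, inferInstance, inferInstance, ?_⟩
  rw [(ULift.moduleEquiv (R := E)).finrank_eq, FiniteField.finrank_extension]

section
variable {E K : Type u} [Field E] [Fintype E] [Field K] [Algebra E K] [Finite K]

theorem exists_gen : ∃ θ : Kˣ, (∀ x : K, x ≠ 0 → ∃ i : ℕ, x = (θ : K) ^ i) ∧
    orderOf θ = Nat.card K - 1 := by
  obtain ⟨θ, hθ⟩ := IsCyclic.exists_generator (α := Kˣ)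
  refine ⟨θ, fun x hx => ?_, by rw [orderOf_eq_card_of_forall_mem_zpowers hθ, Nat.card_units]⟩
  obtain ⟨i, hi⟩ := (mem_powers_iff_mem_zpowers.2 (hθ (Units.mk0 x hx)))
  exact ⟨i, by simpa using (congrArg Units.val hi).symm⟩

theorem natDegree_minpoly {θ : K} (h : ∀ x : K, x ≠ 0 → ∃ i : ℕ, x = θ ^ i) :
    (minpoly E θ).natDegree = finrank E K := by
  have : Module.Finite E K := Module.Finite.of_finite
  refine (Field.primitive_element_iff_minpoly_natDegree_eq E θ).1 (eq_top_iff.2 fun x _ => ?_)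
  by_cases hx : x = 0
  · exact hx ▸ zero_mem _
  · obtain ⟨i, rfl⟩ := h x hx
    exact pow_mem (IntermediateField.mem_adjoin_simple_self E θ) i

theorem eq_zero_of_aeval {θ : K} (h : ∀ x : K, x ≠ 0 → ∃ i : ℕ, x = θ ^ i) {p : E[X]}
    (h1 : aeval θ p = 0) (h2 : p.degree < finrank E K) : p = 0 := by
  by_contra h0
  have : Module.Finite E K := Module.Finite.of_finite
  have := minpoly.degree_le_of_ne_zero E θ h0 h1
  rw [degree_eq_natDegree (minpoly.ne_zero (Algebra.IsIntegral.isIntegral θ)),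
    natDegree_minpoly h] at this
  exact absurd h2 (not_lt.2 this)

/-- the span of `1, θ, .., θ ^ (s - 1)` -/
noncomputable def RR (E : Type u) [Field E] [Algebra E K] (θ : K) (s : ℕ) : Submodule E K :=
  (degreeLT E s).map (aeval θ : E[X] →ₐ[E] K).toLinearMap

theorem finrank_RR {θ : K} (h : ∀ x : K, x ≠ 0 → ∃ i : ℕ, x = θ ^ i) {s : ℕ}
    (hs : s ≤ finrank E K) : finrank E (RR E θ s) = s := by
  have e1 : finrank E (degreeLT E s) = s := by
    rw [(degreeLTEquiv E s).finrank_eq, finrank_fin_fun]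
  rw [RR, ← LinearMap.range_domRestrict, LinearMap.finrank_range_of_inj, e1]
  rw [injective_iff_map_eq_zero]
  intro p hp
  exact Subtype.ext (eq_zero_of_aeval h hp ((mem_degreeLT.1 p.2).trans_le (by exact_mod_cast hs)))

theorem scalar_of_RR {θ : K} (h : ∀ x : K, x ≠ 0 → ∃ i : ℕ, x = θ ^ i) {s : ℕ} (h1 : 1 ≤ s)
    (hs : s < finrank E K) {a : K} (ha : ∀ x ∈ RR E θ s, a * x ∈ RR E θ s) :
    ∃ c : E, a = algebraMap E K c := by
  have hp : ∀ j < s, θ ^ j ∈ RR E θ s := fun j hj =>
    ⟨X ^ j, mem_degreeLT.2 (by rw [degree_X_pow]; exact_mod_cast hj), by simp⟩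
  obtain ⟨p, p1, p2⟩ := ha _ (hp 0 h1)
  have p2 : aeval θ p = a := by simpa using p2
  have p1 : p.degree < s := mem_degreeLT.1 p1
  by_cases hd : p.natDegree = 0
  · exact ⟨p.coeff 0, by rw [← p2, eq_C_of_natDegree_eq_zero hd]; simp⟩
  have p0 : p ≠ 0 := by rintro rfl; simp at hd
  have p3 : p.natDegree < s := (natDegree_lt_iff_degree_lt p0).2 p1
  obtain ⟨r, r1, r2⟩ := ha _ (hp (s - p.natDegree) (by omega))
  have r2 : aeval θ r = a * θ ^ (s - p.natDegree) := r2
  have r1 : r.degree < s := mem_degreeLT.1 r1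
  have d1 : (p * X ^ (s - p.natDegree)).degree = (s : WithBot ℕ) := by
    rw [degree_mul, degree_X_pow, degree_eq_natDegree p0, ← Nat.cast_add]
    congr 1
    omega
  have d2 : (p * X ^ (s - p.natDegree) - r).degree = (s : WithBot ℕ) := by
    rw [degree_sub_eq_left_of_degree_lt (d1 ▸ r1), d1]
  have := eq_zero_of_aeval h (p := p * X ^ (s - p.natDegree) - r) (by simp [p2, r2])
    (by rw [d2]; exact_mod_cast hs)
  rw [this, degree_zero] at d2
  exact absurd d2 (by simp)

theorem aeval_inv_ne {q : ℕ} {σ : E →+* E} (hE : Fintype.card E = q ^ 2) (hσ : ∀ x, σ x = x ^ q)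
    {θ : K} (h : ∀ x : K, x ≠ 0 → ∃ i : ℕ, x = θ ^ i) (hK : 4 < Nat.card K) :
    aeval θ⁻¹ ((minpoly E θ).map σ) ≠ 0 := by
  classical
  intro h0
  have : Module.Finite E K := Module.Finite.of_finite
  obtain ⟨k, -, hr, hq⟩ := exists_pow_char hE
  have := Fact.mk hr
  have : CharP K (ringChar E) := charP_of_injective_algebraMap (algebraMap E K).injective _
  let τ : K →+* K := iterateFrobenius K (ringChar E) k
  have hτ : ∀ x, τ x = x ^ q := fun x => by rw [hq]; rfl
  have h1 : aeval (τ θ⁻¹) (minpoly E θ) = 0 := by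
    have := congrArg τ h0
    rw [map_zero, aeval_def, hom_eval₂, eval₂_map] at this
    rw [aeval_def, ← this]
    congr 1
    ext x
    simp only [RingHom.comp_apply, hτ, hσ, ← map_pow, pow_q_pow_q hE]
  obtain ⟨φ, hφ⟩ := minpoly.exists_algEquiv_of_root' (Algebra.IsAlgebraic.isAlgebraic θ) h1
  have h2 : ∀ t : K, t ≠ 0 → φ t = τ t⁻¹ := fun t ht => by
    obtain ⟨i, rfl⟩ := h t ht
    rw [map_pow, hφ, ← map_pow, inv_pow]
  have h3 : ∀ t : K, t * (t + 1) * (t ^ 2 + t + 1) = 0 := fun t => by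
    by_cases ht : t = 0
    · simp [ht]
    by_cases ht' : t + 1 = 0
    · simp [ht']
    have e : (t + 1)⁻¹ = t⁻¹ + 1 := τ.injective (by
      rw [← h2 _ ht', map_add, map_add, h2 _ ht, map_one, map_one])
    field_simp at e
    linear_combination (-t * (t + 1)) * e
  have := Fintype.ofFinite K
  have h4 : (X * (X + 1) * (X ^ 2 + X + 1) : K[X]).natDegree ≤ 4 := by compute_degree
  have h5 : (X * (X + 1) * (X ^ 2 + X + 1) : K[X]) = 0 :=
    eq_zero_of_natDegree_lt_card_of_eval_eq_zero _ Function.injective_id (fun t => by simp [h3 t])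
      (by rw [← Nat.card_eq_fintype_card]; omega)
  have h6 : (X * (X + 1) * (X ^ 2 + X + 1) : K[X]).coeff 1 = 1 := by
    rw [show (X * (X + 1) * (X ^ 2 + X + 1) : K[X]) = X ^ 4 + (X ^ 3 + X ^ 3) + (X ^ 2 + X ^ 2) + X
      by ring]
    simp [coeff_X]
  rw [h5, coeff_zero] at h6
  exact zero_ne_one h6

end

theorem choose_e (fob : FobStmt.{u}) {E X K : Type u} [Field E] [Fintype E] [AddCommGroup X]
    [Module E X] [Finite X] [Field K] [Algebra E K] [Finite K] {σ : E →+* E} {q : ℕ}
    {β : X →ₛₗ[σ] X →ₗ[E] E} (hE : Fintype.card E = q ^ 2) (hσ : ∀ x, σ x = x ^ q)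
    (hβ : IsHermSymm β) (h0 : β ≠ 0) (hd : finrank E K = finrank E X) {θ : K}
    (h : ∀ x : K, x ≠ 0 → ∃ i : ℕ, x = θ ^ i) :
    ∃ e : X ≃ₗ[E] K, ∀ a : K, a ≠ 0 →
      (∀ x y, β (e.symm (a * x)) (e.symm (a * y)) = β (e.symm x) (e.symm y)) →
      ∃ c : E, a = algebraMap E K c := by
  have : Module.Finite E K := Module.Finite.of_finite
  have : Module.Finite E X := Module.Finite.of_finite
  let e0 : X ≃ₗ[E] K := LinearEquiv.ofFinrankEq X K hd.symm
  by_cases h1 : finrank E K = 1
  · refine ⟨e0, fun a _ _ => ?_⟩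
    obtain ⟨c, hc⟩ := (finrank_eq_one_iff_of_nonzero' (1 : K) one_ne_zero).1 h1 a
    exact ⟨c, by rw [← hc, Algebra.algebraMap_eq_smul_one]⟩
  have hpos : 0 < finrank E K := finrank_pos
  by_cases hk : LinearMap.ker β = ⊥
  · obtain ⟨b, hb, hb'⟩ := fob E K σ q hE hσ (by omega)
    have : IsHerm β := ⟨hβ, fun x hx => by
      rw [← Submodule.mem_bot E, ← hk]
      exact LinearMap.ext hx⟩
    obtain ⟨e, he⟩ := this.exists_isometry hb hd.symm
    exact ⟨e, fun a _ ha => hb' a fun x y => by simpa only [← he, e.apply_symm_apply] using ha x y⟩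
  · set s := finrank E (LinearMap.ker β) with hs
    have s1 : 1 ≤ s := Submodule.one_le_finrank_iff.2 hk
    have s2 : s < finrank E K := hd ▸ Submodule.finrank_lt (fun e => h0 (LinearMap.ext fun x =>
      (e ▸ Submodule.mem_top : x ∈ LinearMap.ker β)))
    have f1 : finrank E ((LinearMap.ker β).map (e0 : X →ₗ[E] K)) = finrank E (RR E θ s) := by
      rw [LinearEquiv.finrank_map_eq, finrank_RR h s2.le]
    obtain ⟨g, hg⟩ := Submodule.exists_linearEquiv_restrict_eq (LinearEquiv.ofFinrankEq _ _ f1)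
    have key : ∀ x, x ∈ RR E θ s ↔ (e0.trans g).symm x ∈ LinearMap.ker β := by
      intro x
      constructor
      · intro hx
        obtain ⟨⟨_, y, hy, rfl⟩, e⟩ := (LinearEquiv.ofFinrankEq _ _ f1).surjective ⟨x, hx⟩
        have := hg ⟨_, y, hy, rfl⟩
        rw [e] at this
        change x = (e0.trans g) y at this
        rwa [this, LinearEquiv.symm_apply_apply]
      · intro hx
        have := hg ⟨_, _, hx, rfl⟩
        change _ = (e0.trans g) _ at this
        rw [LinearEquiv.apply_symm_apply] at this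
        rw [← this]
        exact Submodule.coe_mem _
    refine ⟨e0.trans g, fun a ha hh => scalar_of_RR h s1 s2 fun x hx => (key _).2 ?_⟩
    refine LinearMap.ext fun y => ?_
    have := hh x (a⁻¹ * (e0.trans g) y)
    rw [mul_inv_cancel_left₀ ha, LinearEquiv.symm_apply_apply, (key x).1 hx] at this
    exact this

theorem fo (fob : FobStmt.{u}) : FoStmt.{u} := by
  intro E X _ _ _ _ _ σ q β hE hσ hβ h0 hq
  have : Module.Finite E X := Module.Finite.of_finite
  have hm : finrank E X ≠ 0 := fun e => h0 (LinearMap.ext fun x => by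
    rw [finrank_zero_iff_forall_zero.1 e x, map_zero, map_zero])
  obtain ⟨K, _, _, _, hd⟩ := exists_ext E _ hm
  have : Module.Finite E K := Module.Finite.of_finite
  obtain ⟨θ, hθ, ho⟩ := exists_gen (K := K)
  have hK : Nat.card K = q ^ (2 * finrank E X) := by
    rw [Module.natCard_eq_pow_finrank (K := E), Nat.card_eq_fintype_card, hE, hd, pow_mul]
  have q2 := two_le_of_card_sq hE
  have hK4 : 4 < Nat.card K := by
    rw [hK]
    by_cases e : q = 2
    · calc 4 < 2 ^ 4 := by norm_num
        _ ≤ q ^ (2 * finrank E X) := by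
          rw [e]
          exact Nat.pow_le_pow_right (by norm_num) (by omega)
    · calc 4 < 3 ^ 2 := by norm_num
        _ ≤ q ^ 2 := Nat.pow_le_pow_left (by omega) 2
        _ ≤ _ := Nat.pow_le_pow_right (by omega) (by omega)
  obtain ⟨e, he⟩ := choose_e fob hE hσ hβ h0 hd hθ
  let φ : K →ₐ[E] Module.End E X :=
    (e.symm.conjAlgEquiv E : Module.End E K →ₐ[E] Module.End E X).comp (Algebra.lmul E K)
  have hφ : ∀ a x, φ a x = e.symm (a * e x) := fun a x => rfl
  let ψ : Kˣ →* (X ≃ₗ[E] X) :=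
    (LinearMap.GeneralLinearGroup.generalLinearEquiv E X).toMonoidHom.comp (Units.map φ.toMonoidHom)
  have hψ : ∀ a : Kˣ, (ψ a : X →ₗ[E] X) = φ a := fun a => rfl
  have hψ' : ∀ (a : Kˣ) x, ψ a x = e.symm (a * e x) := fun a x => rfl
  have inj : Function.Injective ψ := by
    intro a b hab
    have := hψ' a (e.symm 1)
    rw [hab, hψ'] at this
    exact Units.ext (by simpa using this.symm)
  refine ⟨ψ θ, ⟨by rw [orderOf_injective ψ inj, ho, hK], minpoly E (θ : K), ?_, ?_, ?_⟩, ?_⟩
  · rw [hψ, aeval_algHom_apply, minpoly.aeval, map_zero]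
  · intro h1
    have := minpoly.root (Algebra.IsIntegral.isIntegral (θ : K)) h1
    rw [map_one] at this
    rw [show θ = 1 from Units.ext this.symm, orderOf_one] at ho
    omega
  · rw [← map_inv, hψ, aeval_algHom_apply, Units.val_inv_eq_inv_val]
    intro x y hxy
    rw [hφ, hφ] at hxy
    exact e.injective (mul_left_cancel₀ (aeval_inv_ne hE hσ hθ hK4) (e.symm.injective hxy))
  · intro t ht hb
    set a := e (t (e.symm 1)) with ha
    have h1 : ∀ i : ℕ, t (e.symm ((θ : K) ^ i)) = e.symm (a * (θ : K) ^ i) := by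
      intro i
      induction i with
      | zero => simp [ha]
      | succ i ih =>
        have := LinearEquiv.congr_fun ht (e.symm ((θ : K) ^ i))
        rw [LinearEquiv.mul_apply, LinearEquiv.mul_apply, ih, hψ', hψ', e.apply_symm_apply,
          e.apply_symm_apply] at this
        rw [pow_succ', this, mul_left_comm]
    have h2 : ∀ x, t (e.symm x) = e.symm (a * x) := fun x => by
      by_cases hx : x = 0
      · simp [hx]
      · obtain ⟨i, rfl⟩ := hθ x hx
        exact h1 i
    obtain ⟨c, hc⟩ := he a (by simp [ha]) fun x y => by rw [← h2, ← h2, hb]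
    have h3 : ∀ x, t x = c • x := fun x => by
      have := h2 (e x)
      rwa [e.symm_apply_apply, hc, ← Algebra.smul_def, map_smul, e.symm_apply_apply] at this
    refine ⟨c, ?_, h3⟩
    obtain ⟨x, y, hxy⟩ : ∃ x y, β x y ≠ 0 := by
      by_contra hc
      push Not at hc
      exact h0 (LinearMap.ext fun x => LinearMap.ext (hc x))
    have := hb x y
    rw [h3, h3, map_smul, map_smulₛₗ, LinearMap.smul_apply, smul_eq_mul, smul_eq_mul,
      ← mul_assoc] at this
    exact mul_right_cancel₀ hxy (this.trans (one_mul _).symm)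

end Cfsg.Agent.H52.UwFo
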