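import Cfsg.Agent.H42.VpDefs

/-! The central quotient has a Frobenius complement that is a group of prime power order. -/

set_option autoImplicit false

namespace Cfsg.Agent.H52.VpF2

open Subgroup Cfsg Cfsg.Agent.H42.Vp
open scoped Pointwise

universe u

theorem f2 : F2Stmt.{u} := by
  intro G _ _ p hp K _ hK hidx hne hloc hx hZ
  classical
  haveI : Fact p.Prime := ⟨hp⟩
  obtain ⟨x, ⟨m, hm⟩, hxZ⟩ := hx
  obtain ⟨kk, hkk⟩ := hidx
  have hxp : IsPGroup p (zpowers x) := by
    rintro ⟨y, n, rfl⟩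
    refine ⟨m, Subtype.ext ?_⟩
    show (x ^ n) ^ p ^ m = 1
    rw [← zpow_natCast, ← zpow_mul, mul_comm, zpow_mul, zpow_natCast, hm, one_zpow]
  obtain ⟨P, hP⟩ := hxp.exists_le_sylow
  have hxP : x ∈ (P : Subgroup G) := hP (mem_zpowers x)
  have hZP : center G ≤ (P : Subgroup G) := hZ.le_sylow_of_normal P
  have hpel : ∀ y ∈ (P : Subgroup G), ∃ n, y ^ p ^ n = 1 := by
    intro y hy
    obtain ⟨n, hn⟩ := P.isPGroup' ⟨y, hy⟩
    exact ⟨n, congrArg Subtype.val hn⟩
  have hPK : ∀ y ∈ (P : Subgroup G), y ∈ K → y = 1 := by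
    intro y hy hyK
    obtain ⟨n, hn⟩ := hpel y hy
    have h1 : orderOf y ∣ p ^ n := orderOf_dvd_of_pow_eq_one hn
    have h2 : orderOf y ∣ Nat.card K := Subgroup.orderOf_dvd_natCard K hyK
    have h3 : orderOf y = 1 := Nat.eq_one_of_dvd_coprimes (hK.pow_right n) h2 h1
    exact orderOf_eq_one_iff.mp h3
  have hsup : K ⊔ (P : Subgroup G) = ⊤ := by
    rw [← Subgroup.index_eq_one]
    have h1 : (K ⊔ (P : Subgroup G)).index ∣ p ^ kk :=
      hkk ▸ Subgroup.index_dvd_of_le le_sup_left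
    have h2 : (K ⊔ (P : Subgroup G)).index ∣ (P : Subgroup G).index :=
      Subgroup.index_dvd_of_le le_sup_right
    have h3 : (p ^ kk).Coprime (P : Subgroup G).index :=
      ((Nat.Prime.coprime_iff_not_dvd hp).mpr P.not_dvd_index).pow_left kk
    exact Nat.eq_one_of_dvd_coprimes h3 h1 h2
  have hdec : ∀ g : G, ∃ k ∈ K, ∃ v ∈ (P : Subgroup G), k * v = g := by
    intro g
    have hg : g ∈ K ⊔ (P : Subgroup G) := hsup ▸ mem_top g
    have h2 : g ∈ ((K ⊔ (P : Subgroup G) : Subgroup G) : Set G) := hg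
    rw [Subgroup.normal_mul] at h2
    obtain ⟨k, hk, v, hv, h⟩ := h2
    exact ⟨k, hk, v, hv, h⟩
  have hmem : ∀ y : G, (QuotientGroup.mk' (center G) y) ∈
      (P : Subgroup G).map (QuotientGroup.mk' (center G)) → y ∈ (P : Subgroup G) := by
    rintro y ⟨v, hv, h⟩
    have h1 : v⁻¹ * y ∈ center G := QuotientGroup.eq.mp h
    have h2 := (P : Subgroup G).mul_mem hv (hZP h1)
    simpa using h2
  refine ⟨(P : Subgroup G).map (QuotientGroup.mk' (center G)), ⟨?_, ?_, ?_⟩, P.isPGroup'.map _⟩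
  · intro h
    have h1 : (QuotientGroup.mk' (center G) x) ∈
        (P : Subgroup G).map (QuotientGroup.mk' (center G)) := ⟨x, hxP, rfl⟩
    rw [h, mem_bot] at h1
    exact hxZ ((QuotientGroup.eq_one_iff x).mp h1)
  · intro h
    apply hne
    rw [eq_bot_iff]
    intro k hk
    rw [mem_bot]
    exact hPK k (hmem k (h ▸ mem_top _)) hk
  · intro gb hgb
    obtain ⟨g, rfl⟩ := QuotientGroup.mk'_surjective (center G) gb
    obtain ⟨k, hk, v, hv, rfl⟩ := hdec g
    have hk1 : k ≠ 1 := by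
      rintro rfl
      exact hgb ⟨v, hv, by rw [one_mul]⟩
    rw [eq_bot_iff]
    rintro ab ⟨⟨a, ha, rfl⟩, h2⟩
    rw [mem_bot]
    have h3 : (QuotientGroup.mk' (center G) ((k * v)⁻¹ * a * (k * v))) ∈
        (P : Subgroup G).map (QuotientGroup.mk' (center G)) := by
      have h4 := Subgroup.mem_pointwise_smul_iff_inv_smul_mem.mp h2
      simpa [MulAut.smul_def, mul_assoc] using h4
    have h5 := hmem _ h3
    have h6 : k⁻¹ * a * k * a⁻¹ ∈ (P : Subgroup G) := by
      have h7 := (P : Subgroup G).mul_mem ((P : Subgroup G).mul_mem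
        ((P : Subgroup G).mul_mem hv h5) ((P : Subgroup G).inv_mem hv))
        ((P : Subgroup G).inv_mem ha)
      convert h7 using 1
      group
    have h8 : k⁻¹ * a * k * a⁻¹ ∈ K := by
      have h9 : a * k * a⁻¹ ∈ K := ‹K.Normal›.conj_mem k hk a
      have h10 := K.mul_mem (K.inv_mem hk) h9
      convert h10 using 1
      group
    have h11 := hPK _ h6 h8
    have h12 : Commute a k := by
      show a * k = k * a
      calc a * k = k * (k⁻¹ * a * k * a⁻¹) * a := by group
        _ = k * a := by rw [h11, mul_one]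
    exact (QuotientGroup.eq_one_iff a).mpr (hloc a (hpel a ha) k hk hk1 h12)

end Cfsg.Agent.H52.VpF2
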